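import Cfsg.Agent.H2.Coord

/-! The structure equations in coordinates. -/

set_option autoImplicit false

namespace Cfsg.Agent.H2

open Subgroup MulAction

theorem Hua.fixed_of_two {H R V : Type*} [CommGroup H] [CommRing R] [AddCommGroup V] [Module R V]
    {χ : H →* R} {s : V → V} {M : V → H} (h : Hua χ s M) {v : V} (hv : v ≠ 0) (h2 : -v = v)
    (hM : M v = 1) : s (huaT s v) = huaT s v := by
  rw [h.s_eq (h.T_ne hv), h.M_T hv, hM, inv_one, map_one, one_smul, h.T_T hv, ← Hua.T_neg, h2]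

namespace Coord

variable {G Ω V : Type*} [Group G] [MulAction G Ω] {a b : Ω} [AddCommGroup V]
  [DistribMulAction (St G a b) V] (C : Coord G a b V)

theorem bruhat_unique {s : G} (hs2 : s * s = 1) (hsa : s • a = b) {α β α' β' : V}
    {h h' : St G a b} (e : C.t α * h * s * C.t β = C.t α' * h' * s * C.t β') :
    α = α' ∧ h = h' ∧ β = β' := by
  have aux : ∀ (α β : V) (h : St G a b), (C.t α * h * s * C.t β) • a = C.ι α := by
    intro α β h
    rw [mul_smul, mul_smul, mul_smul, C.t_a, hsa, show (h : G) • b = b from h.2.2, C.t_b]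
  have h1 : α = α' := C.ι_inj (by rw [← aux α β h, e, aux])
  have aux2 : ∀ (α β : V) (h : St G a b), (C.t α * h * s * C.t β) • C.ι (-β) = a := by
    intro α β h
    have hsb : s • b = a := by rw [← hsa, ← mul_smul, hs2, one_smul]
    rw [mul_smul, mul_smul, mul_smul, C.t_ι, add_neg_cancel, C.ι_zero, hsb,
      show (h : G) • a = a from h.2.1, C.t_a]
  have h2 : β = β' := neg_injective (C.ι_inj (MulAction.injective (C.t α * h * s * C.t β)
    (by simp only; rw [aux2, e, aux2])))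
  subst h1 h2
  exact ⟨rfl, Subtype.ext (mul_left_cancel (mul_right_cancel (mul_right_cancel e))), rfl⟩

theorem bruhat_exists {s : G} (hs2 : s * s = 1) (hsa : s • a = b) {c : V} (hc : c ≠ 0) :
    ∃ (α β : V) (h : St G a b), s • C.ι c = C.ι α ∧ α ≠ 0 ∧ β ≠ 0 ∧
      s * C.t c * s = C.t α * h * s * C.t β := by
  have hsb : s • b = a := by rw [← hsa, ← mul_smul, hs2, one_smul]
  have hss : ∀ y : Ω, s • s • y = y := fun y => by rw [← mul_smul, hs2, one_smul]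
  have aux : ∀ c : V, c ≠ 0 → ∃ α : V, α ≠ 0 ∧ s • C.ι c = C.ι α := by
    intro c hc
    obtain ⟨α, hα⟩ := C.ι_surj (s • C.ι c) (fun e => hc (C.ι_inj (by
      rw [← hss (C.ι c), e, hsa, C.ι_zero])))
    refine ⟨α, ?_, hα.symm⟩
    rintro rfl
    exact C.ι_ne c (by rw [← hss (C.ι c), ← hα, C.ι_zero, hsb])
  obtain ⟨α, hα0, hα⟩ := aux c hc
  obtain ⟨β, hβ0, hβ⟩ := aux (-c) (neg_ne_zero.2 hc)
  refine ⟨α, -β, ⟨C.t (-α) * (s * C.t c * s) * C.t β * s, ?_, ?_⟩, hα, hα0, neg_ne_zero.2 hβ0, ?_⟩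
  · show _ • a = a
    simp only [mul_smul]
    rw [hsa, C.t_b, ← hβ, hss, C.t_ι, add_neg_cancel, C.ι_zero, hsb, C.t_a]
  · show _ • b = b
    simp only [mul_smul]
    rw [hsb, C.t_a, hsa, C.t_b, hα, C.t_ι, neg_add_cancel, C.ι_zero]
  · simp only [C.t_neg]
    calc s * C.t c * s = C.t α * ((C.t α)⁻¹ * (s * C.t c * s) * C.t β * (s * s)) * (C.t β)⁻¹ := by
          rw [hs2]; group
      _ = _ := by group

theorem exists_hua (h3 : ∀ (g : G) (a b c : Ω), a ≠ b → b ≠ c → a ≠ c → g • a = a → g • b = b →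
      g • c = c → g = 1) {s : G} (hs2 : s * s = 1) (hsa : s • a = b) {H R : Type*} [CommGroup H]
    [CommRing R] [Module R V] (χ : H →* R) (j : H →* St G a b) (hj : Function.Injective j)
    (hχ : ∀ (k : H) (v : V), χ k • v = j k • v)
    (hinv : ∀ k : H, s * j k = j k⁻¹ * s)
    (hD : ∀ (c α β : V) (h : St G a b), s * C.t c * s = C.t α * h * s * C.t β → h ∈ j.range) :
    ∃ (σ : V → V) (M : V → H), (∀ c, c ≠ 0 → s • C.ι c = C.ι (σ c)) ∧ Hua χ σ M := by
  have hex : ∀ c : V, ∃ (α β : V) (m : H), c ≠ 0 → s • C.ι c = C.ι α ∧ α ≠ 0 ∧ β ≠ 0 ∧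
      s * C.t c * s = C.t α * j m⁻¹ * s * C.t β := by
    intro c
    by_cases hc : c = 0
    · exact ⟨0, 0, 1, fun h => absurd hc h⟩
    · obtain ⟨α, β, h, h1, h2, h4, h5⟩ := C.bruhat_exists hs2 hsa hc
      obtain ⟨m, rfl⟩ := hD c α β h h5
      exact ⟨α, β, m⁻¹, fun _ => ⟨h1, h2, h4, by rwa [inv_inv]⟩⟩
  choose σ β M hh using hex
  have U : ∀ c, c ≠ 0 → ∀ (α' β' : V) (m : H), s * C.t c * s = C.t α' * j m⁻¹ * s * C.t β' →
      σ c = α' ∧ M c = m ∧ β c = β' := by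
    intro c hc α' β' m e
    obtain ⟨p1, p2, p3⟩ := C.bruhat_unique hs2 hsa ((hh c hc).2.2.2.symm.trans e)
    exact ⟨p1, inv_injective (hj p2), p3⟩
  have jt : ∀ (k : H) (v : V), (j k : G) * C.t v = C.t (χ k • v) * j k := fun k v => by
    rw [hχ, C.h_t]
  have jt' : ∀ (k : H) (v : V), C.t v * j k = j k * C.t (χ k⁻¹ • v) := fun k v => by
    rw [jt, chi_smul_inv]
  have jm : ∀ k l : H, (j (k * l) : G) = j k * j l := fun k l => by rw [map_mul]; rfl
  have ji : ∀ k : H, (j k⁻¹ : G) = (j k : G)⁻¹ := fun k => by rw [map_inv]; rfl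
  have hsi : s⁻¹ = s := inv_eq_of_mul_eq_one_right hs2
  have hinv' : ∀ k : H, s * j k⁻¹ = j k * s := fun k => by rw [hinv, inv_inv]
  have N : ∀ c, c ≠ 0 → σ (-c) = -β c ∧ M (-c) = M c ∧ β (-c) = -σ c := by
    intro c hc
    apply U _ (neg_ne_zero.2 hc)
    rw [C.t_neg, C.t_neg, C.t_neg]
    calc s * (C.t c)⁻¹ * s = (s * C.t c * s)⁻¹ := by rw [mul_inv_rev, mul_inv_rev, hsi, mul_assoc]
      _ = (C.t (β c))⁻¹ * (s⁻¹ * (j (M c)⁻¹ : G)⁻¹) * (C.t (σ c))⁻¹ := by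
          rw [(hh c hc).2.2.2]; group
      _ = _ := by rw [hsi, ← ji, inv_inv, hinv]; group
  have Rr : ∀ c, c ≠ 0 → σ (β c) = -(χ (M c) • σ c) ∧ M (β c) = (M c)⁻¹ ∧ β (β c) = c := by
    intro c hc
    apply U _ (hh c hc).2.2.1
    rw [inv_inv, ← smul_neg, ← jt, C.t_neg]
    calc s * C.t (β c) * s = (j (M c)⁻¹ : G)⁻¹ * (C.t (σ c))⁻¹ *
          (C.t (σ c) * j (M c)⁻¹ * s * C.t (β c)) * s := by group
      _ = (j (M c)⁻¹ : G)⁻¹ * (C.t (σ c))⁻¹ * s * C.t c * (s * s) := by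
          rw [← (hh c hc).2.2.2]; group
      _ = _ := by rw [hs2, ← ji, inv_inv, mul_one]
  have hβ : ∀ c, c ≠ 0 → β c = -σ (-c) := fun c hc => by rw [(N c hc).1, neg_neg]
  have K : ∀ (k : H) c, c ≠ 0 → σ (χ k • c) = χ k⁻¹ • σ c ∧ M (χ k • c) = k ^ 2 * M c ∧
      β (χ k • c) = χ k⁻¹ • β c := by
    intro k c hc
    apply U _ (chi_ne χ k hc)
    calc s * C.t (χ k • c) * s = s * (C.t (χ k • c) * j k) * (j k : G)⁻¹ * s := by group
      _ = (s * j k) * C.t c * (j k⁻¹ * s) := by rw [← jt, ji]; group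
      _ = (j k⁻¹ * s) * C.t c * (s * j k) := by rw [hinv k]
      _ = j k⁻¹ * (s * C.t c * s) * j k := by group
      _ = (j k⁻¹ * C.t (σ c)) * j (M c)⁻¹ * s * (C.t (β c) * j k) := by
          rw [(hh c hc).2.2.2]; group
      _ = C.t (χ k⁻¹ • σ c) * (j k⁻¹ * j (M c)⁻¹) * (s * j k) * C.t (χ k⁻¹ • β c) := by
          rw [jt, jt' k (β c)]; group
      _ = C.t (χ k⁻¹ • σ c) * (j k⁻¹ * j (M c)⁻¹ * j k⁻¹) * s * C.t (χ k⁻¹ • β c) := by
          rw [hinv k]; group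
      _ = _ := by
          rw [← jm, ← jm]
          congr 5
          rw [pow_two, mul_inv, mul_inv, mul_right_comm]
  have hσ : ∀ c, c ≠ 0 → σ (σ c) = c := fun c hc => C.ι_inj (by
    rw [← (hh _ (hh c hc).2.1).1, ← (hh c hc).1, ← mul_smul, hs2, one_smul])
  have A : ∀ x y, x ≠ 0 → y ≠ 0 → x + y ≠ 0 →
      σ (x + y) = σ x + χ (M x)⁻¹ • σ (σ y - σ (-x)) ∧
      M (x + y) = M x * M y * M (σ y - σ (-x)) := by
    intro x y hx hy hxy
    have hγ : σ y - σ (-x) ≠ 0 := by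
      intro e
      apply hxy
      have := congrArg σ (sub_eq_zero.1 e)
      rw [hσ _ hy, hσ _ (neg_ne_zero.2 hx)] at this
      rw [this, add_neg_cancel]
    set γ := σ y - σ (-x) with hγd
    have e1 : C.t γ = C.t (β x) * C.t (σ y) := by
      rw [← C.t_add, hβ x hx, hγd]; congr 1; abel
    refine (fun h => ⟨h.1, h.2.1⟩) (U _ hxy _ (χ (M y)⁻¹ • β γ + β y) _ ?_)
    calc s * C.t (x + y) * s = (s * C.t x * s) * (s * C.t y * s) := by
          rw [C.t_add]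
          calc s * (C.t x * C.t y) * s = s * C.t x * 1 * C.t y * s := by group
            _ = _ := by rw [← hs2]; group
      _ = C.t (σ x) * j (M x)⁻¹ * s * C.t γ * (j (M y)⁻¹ * s) * C.t (β y) := by
          rw [(hh x hx).2.2.2, (hh y hy).2.2.2, e1]; group
      _ = C.t (σ x) * j (M x)⁻¹ * (s * C.t γ * s) * j (M y) * C.t (β y) := by
          rw [← hinv]; group
      _ = C.t (σ x) * (j (M x)⁻¹ * C.t (σ γ)) * j (M γ)⁻¹ * s * (C.t (β γ) * j (M y)) * C.t (β y) := by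
          rw [(hh γ hγ).2.2.2]; group
      _ = C.t (σ x) * C.t (χ (M x)⁻¹ • σ γ) * j (M x)⁻¹ * j (M γ)⁻¹ * (s * j (M y)) *
            (C.t (χ (M y)⁻¹ • β γ) * C.t (β y)) := by
          rw [jt, jt' (M y) (β γ)]; group
      _ = C.t (σ x) * C.t (χ (M x)⁻¹ • σ γ) * (j (M x)⁻¹ * j (M γ)⁻¹ * j (M y)⁻¹) * s *
            (C.t (χ (M y)⁻¹ • β γ) * C.t (β y)) := by
          rw [hinv]; group
      _ = _ := by
          rw [← jm, ← jm, ← C.t_add, ← C.t_add]
          congr 5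
          rw [mul_inv, mul_inv, mul_right_comm]
  refine ⟨σ, M, fun c hc => (hh c hc).1,
    { fpf := fun k v e => ?_
      ne := fun c hc => (hh c hc).2.1
      ss := hσ
      smul := fun k c hc => (K k c hc).1
      Msmul := fun k c hc => (K k c hc).2.1
      Mneg := fun c hc => (N c hc).2.1
      Ms := fun c hc => ?_
      tau := fun c hc => by rw [← hβ c hc, (Rr c hc).1]
      add1 := fun x y hx hy hxy => (A x y hx hy hxy).1
      add2 := fun x y hx hy hxy => (A x y hx hy hxy).2 }⟩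
  · by_cases hv : v = 0
    · exact Or.inr hv
    · exact Or.inl (hj ((C.fpf h3 _ v hv (by rw [← hχ, e])).trans (map_one j).symm))
  · have h1 := (Rr _ (neg_ne_zero.2 hc)).2.1
    rw [(N c hc).2.2, (N _ (hh c hc).2.1).2.1, (N c hc).2.1] at h1
    exact h1

/-- the hypotheses on the torus -/
structure Torus (D : Subgroup (St G a b)) (s : G) : Prop where
  s2 : s * s = 1
  sa : s • a = b
  comm : ∀ x ∈ D, ∀ y ∈ D, x * y = y * x
  inv : ∀ x ∈ D, s * x * s⁻¹ = (x : G)⁻¹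
  mem : ∀ (c α β : V) (h : St G a b), s * C.t c * s = C.t α * h * s * C.t β → h ∈ D

theorem torus_of_subgroup (L : Subgroup G) (ht : ∀ v, C.t v ∈ L) {s : G} (hs : s ∈ L)
    (s2 : s * s = 1) (sa : s • a = b)
    (inv : ∀ x ∈ St G a b, x ∈ L → s * x * s⁻¹ = x⁻¹) :
    C.Torus (L.subgroupOf (St G a b)) s where
  s2 := s2
  sa := sa
  comm x hx y hy := by
    have h1 := inv _ (x * y).2 (mul_mem hx hy)
    have h2 := inv x x.2 hx
    have h3 := inv y y.2 hy
    apply Subtype.ext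
    apply inv_injective
    rw [← h1, coe_mul, coe_mul, mul_inv_rev, ← h2, ← h3]
    group
  inv x hx := inv x x.2 hx
  mem c α β h e := by
    have h1 : s * C.t c * s ∈ L := mul_mem (mul_mem hs (ht c)) hs
    rw [e, mul_mem_cancel_right (ht β), mul_mem_cancel_right hs, mul_mem_cancel_left (ht α)] at h1
    exact h1

variable {C}

theorem Torus.hua {D : Subgroup (St G a b)} {s : G} (T : C.Torus D s)
    (h3 : ∀ (g : G) (a b c : Ω), a ≠ b → b ≠ c → a ≠ c → g • a = a → g • b = b →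
      g • c = c → g = 1) :
    letI : CommGroup D := { mul_comm := fun x y => Subtype.ext (T.comm x x.2 y y.2) }
    ∃ (_ : Module (MonoidAlgebra ℤ D) V) (σ : V → V) (M : V → D),
      (∀ (k : D) (v : V), MonoidAlgebra.of ℤ D k • v = k • v) ∧
      (∀ c, c ≠ 0 → s • C.ι c = C.ι (σ c)) ∧ Hua (MonoidAlgebra.of ℤ D) σ M := by
  letI : CommGroup D := { mul_comm := fun x y => Subtype.ext (T.comm x x.2 y y.2) }
  obtain ⟨_, hχ⟩ := exists_ring D V
  obtain ⟨σ, M, h1, h2⟩ := C.exists_hua h3 T.s2 T.sa (MonoidAlgebra.of ℤ D) D.subtype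
    D.subtype_injective hχ (fun k => by
      rw [← mul_inv_eq_iff_eq_mul]; exact T.inv k k.2)
    (fun c α β h e => by rw [range_subtype]; exact T.mem c α β h e)
  exact ⟨_, σ, M, hχ, h1, h2⟩

theorem Torus.odd_core [Finite V] {D : Subgroup (St G a b)} {s : G} (T : C.Torus D s)
    (h3 : ∀ (g : G) (a b c : Ω), a ≠ b → b ≠ c → a ≠ c → g • a = a → g • b = b →
      g • c = c → g = 1) (h2 : ∀ v : V, v + v = 0 → v = 0)
    (hsp : (∃ k ∈ D, k ^ 2 ≠ 1) ∨ ∃ z ∈ D, ∀ v : V, z • v = -v) :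
    Irred D V ∧ ∀ (K : Type) [Field K] (φ : K ≃+ V),
      (∀ h ∈ D, ∃ c : K, c ≠ 0 ∧ ∀ x, h • φ x = φ (c * x)) →
      ∃ l : K, l ≠ 0 ∧ (∀ x, x ≠ 0 → s • C.ι (φ x) = C.ι (φ (l / x))) ∧
        ∀ x, x ≠ 0 → ∃ k ∈ D, ∀ y, k • φ y = φ (x ^ 2 * y) := by
  letI : CommGroup D := { mul_comm := fun x y => Subtype.ext (T.comm x x.2 y y.2) }
  obtain ⟨_, σ, M, hχ, hσ, h⟩ := T.hua h3
  have hS : ∀ c : V, c ≠ 0 → huaS σ c = c := by
    intro c hc
    rcases hsp with ⟨k, hk, hk2⟩ | ⟨z, hz, hz'⟩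
    · exact h.special_of_odd (fun v hv => h2 v (by rwa [two_smul] at hv)) ⟨k, hk⟩
        (fun e => hk2 (congrArg Subtype.val e)) hc
    · have e1 : ∀ v : V, MonoidAlgebra.of ℤ D ⟨z, hz⟩ • v = -v := fun v => by rw [hχ]; exact hz' v
      unfold huaS
      rw [← e1 (σ c), h.smul _ _ (h.ne c hc), h.ss c hc, ← smul_neg, ← e1 c, chi_inv_smul]
  have hE : ∀ x y : V, x ≠ 0 → y ≠ 0 → x + y ≠ 0 →
      M x • y + M x • y = M (x + y) • x - M x • x - M y • x := by
    intro x y hx hy hxy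
    simpa only [hχ] using h.special_eq hS hx hy hxy
  constructor
  · intro W hW
    rw [or_iff_not_imp_left, eq_top_iff]
    intro hne y _
    obtain ⟨⟨x, hxW⟩, hx⟩ := (AddSubgroup.ne_bot_iff_exists_ne_zero).1 hne
    have hx0 : x ≠ 0 := fun e => hx (Subtype.ext e)
    by_cases hy : y = 0
    · rw [hy]; exact W.zero_mem
    by_cases hxy : x + y = 0
    · rw [eq_neg_of_add_eq_zero_right hxy]; exact W.neg_mem hxW
    have h4 : M x • y + M x • y ∈ W := by
      rw [hE x y hx0 hy hxy]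
      exact W.sub_mem (W.sub_mem (hW _ (M (x + y)).2 x hxW) (hW _ (M x).2 x hxW)) (hW _ (M y).2 x hxW)
    have h5 : Function.Surjective (fun w : W => w + w) := by
      rw [← Finite.injective_iff_surjective]
      intro w w' e
      have e' : (w : V) + w = w' + w' := congrArg Subtype.val e
      exact Subtype.ext (sub_eq_zero.1 (h2 _ (by linear_combination (norm := abel) e')))
    obtain ⟨w, hw⟩ := h5 ⟨_, h4⟩
    have e' : (w : V) + w = M x • y + M x • y := congrArg Subtype.val hw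
    have h6 : M x • y = w := (sub_eq_zero.1 (h2 _ (by linear_combination (norm := abel) e'))).symm
    have h7 := hW _ (M x)⁻¹.2 _ w.2
    rw [← h6] at h7
    exact (inv_smul_smul (M x) y) ▸ h7
  intro K _ φ hlin
  choose c hc0 hc using fun k : D => hlin k k.2
  have hc' : ∀ (k : D) x, k • φ x = φ (c k * x) := hc
  have h2K : (2 : K) ≠ 0 := fun e => one_ne_zero (φ.injective ((h2 (φ 1) (by
    rw [← map_add, one_add_one_eq_two, e, map_zero])).trans (map_zero φ).symm))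
  have nz : ∀ x : K, x ≠ 0 → φ x ≠ 0 := fun x hx e => hx (φ.injective (e.trans (map_zero φ).symm))
  have hq : ∀ x : K, x ≠ 0 → c (M (φ x)) = c (M (φ 1)) * x ^ 2 := by
    intro x hx
    by_cases hx1 : φ x + φ 1 = 0
    · have e1 := eq_neg_of_add_eq_zero_left hx1
      rw [e1, h.Mneg _ (nz 1 one_ne_zero), φ.injective (e1.trans (map_neg φ 1).symm)]
      ring
    · have e1 := hE _ _ (nz x hx) (nz 1 one_ne_zero) hx1
      have e2 := hE _ _ (nz 1 one_ne_zero) (nz x hx) (by rwa [add_comm])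
      rw [add_comm (φ 1)] at e2
      simp only [hc', ← map_add, ← map_sub, φ.apply_eq_iff_eq] at e1 e2
      apply mul_left_cancel₀ h2K
      linear_combination e1 - x * e2
  refine ⟨-(c (M (φ 1)))⁻¹, neg_ne_zero.2 (inv_ne_zero (hc0 _)), fun x hx => ?_, fun x hx => ?_⟩
  · rw [hσ _ (nz x hx)]
    congr 1
    have e1 := h.T_eq (nz x hx)
    have e2 : huaT σ (φ x) = φ x := by
      conv_lhs => rw [← hS _ (nz x hx)]
      exact h.T_S (nz x hx)
    obtain ⟨y, hy⟩ := φ.surjective (σ (φ x))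
    rw [e2, hχ, ← hy, hc', ← map_neg, φ.apply_eq_iff_eq, hq x hx] at e1
    rw [← hy]
    congr 1
    have := hc0 (M (φ 1))
    field_simp
    apply mul_left_cancel₀ hx
    linear_combination e1
  · refine ⟨_, ((M (φ 1))⁻¹ * M (φ x)).2, fun y => ?_⟩
    show ((M (φ 1))⁻¹ * M (φ x)) • φ y = _
    rw [mul_smul, inv_smul_eq_iff, hc', hc', hq x hx, mul_assoc]

theorem Torus.even_core {D : Subgroup (St G a b)} {s : G} (T : C.Torus D s)
    (h3 : ∀ (g : G) (a b c : Ω), a ≠ b → b ≠ c → a ≠ c → g • a = a → g • b = b →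
      g • c = c → g = 1) (hk : ∃ k ∈ D, k ^ 2 ≠ 1) (hsq : ∀ m ∈ D, ∃ r ∈ D, r ^ 2 = m)
    (hfix : ∀ x y : Ω, s • x = x → s • y = y → x = y) {e : V} (he : e ≠ 0) (he2 : e + e = 0)
    (v w : V) (hv : v ≠ 0) (hw : w ≠ 0) : ∃ k ∈ D, k • v = w := by
  letI : CommGroup D := { mul_comm := fun x y => Subtype.ext (T.comm x x.2 y y.2) }
  obtain ⟨_, σ, M, hχ, hσ, h⟩ := T.hua h3
  obtain ⟨k, hkD, hk2⟩ := hk
  have hsq' : ∀ m : D, ∃ r, r ^ 2 = m := fun m => by
    obtain ⟨r, hr, e⟩ := hsq m m.2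
    exact ⟨⟨r, hr⟩, Subtype.ext e⟩
  have horb : ∀ v w : V, v ≠ 0 → w ≠ 0 → (2 : MonoidAlgebra ℤ D) • v = 0 →
      (2 : MonoidAlgebra ℤ D) • w = 0 → ∃ m : D, v = MonoidAlgebra.of ℤ D m • w := by
    have aux : ∀ v : V, v ≠ 0 → (2 : MonoidAlgebra ℤ D) • v = 0 → ∃ r : D,
        s • C.ι (huaT σ (MonoidAlgebra.of ℤ D r • v)) = C.ι (huaT σ (MonoidAlgebra.of ℤ D r • v)) := by
      intro v hv h2
      obtain ⟨r, hr⟩ := hsq' (M v)⁻¹
      have h4 := chi_ne (MonoidAlgebra.of ℤ D) r hv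
      refine ⟨r, ?_⟩
      rw [hσ _ (h.T_ne h4), h.fixed_of_two h4 _ (by rw [h.Msmul _ _ hv, hr, inv_mul_cancel])]
      linear_combination (norm := module) -(MonoidAlgebra.of ℤ D r) • h2
    intro v w hv hw h1 h2
    obtain ⟨r, hr⟩ := aux v hv h1
    obtain ⟨r', hr'⟩ := aux w hw h2
    have e1 := congrArg (huaS σ) (C.ι_inj (hfix _ _ hr hr'))
    rw [h.S_T (chi_ne _ r hv), h.S_T (chi_ne _ r' hw)] at e1
    exact ⟨r⁻¹ * r', by rw [map_mul, mul_smul, ← e1, chi_inv_smul]⟩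
  have he2' : (2 : MonoidAlgebra ℤ D) • e = 0 := by rwa [two_smul]
  have hall := h.elem_of_even ⟨k, hkD⟩ (fun e => hk2 (congrArg Subtype.val e)) hsq' he he2'
    (fun v hv h2 => horb v e hv he h2 he2')
  obtain ⟨m, hm⟩ := horb w v hw hv (hall w) (hall v)
  exact ⟨m, m.2, by rw [hm, hχ]; rfl⟩

end Coord

end Cfsg.Agent.H2
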