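import Cfsg.Agent.H2.Quat
import Cfsg.Agent.H2.Coord
import Cfsg.Agent.H2.Count

/-! Orbits of two point stabilisers in doubly transitive groups. -/

set_option autoImplicit false

namespace Cfsg.Agent.H2.Der

open Subgroup MulAction

variable {G Ω : Type*} [Group G] [MulAction G Ω]

/-- three point stabiliser -/
abbrev St3 (G : Type*) {Ω : Type*} [Group G] [MulAction G Ω] (x y z : Ω) : Subgroup G :=
  St G x y ⊓ stabilizer G z

/-- orbit length -/
noncomputable def o (G : Type*) {Ω : Type*} [Group G] [MulAction G Ω] (x y z : Ω) : ℕ :=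
  (stabilizer (St G x y) z).index

theorem card_St3 (x y z : Ω) : Nat.card (stabilizer (St G x y) z) = Nat.card (St3 G x y z) :=
  Nat.card_congr ⟨fun g => ⟨g.1.1, g.1.2, g.2⟩, fun g => ⟨⟨g.1, g.2.1⟩, g.2.2⟩, fun _ => rfl,
    fun _ => rfl⟩

theorem card_mul_o (x y z : Ω) : Nat.card (St3 G x y z) * o G x y z = Nat.card (St G x y) := by
  rw [← card_St3, o, card_mul_index]

theorem card_St_smul (g : G) (x y : Ω) : Nat.card (St G (g • x) (g • y)) = Nat.card (St G x y) := by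
  rw [St, stabilizer_smul_eq_stabilizer_map_conj, stabilizer_smul_eq_stabilizer_map_conj,
    ← map_inf _ _ _ (MulAut.conj g).injective, card_map_of_injective (MulAut.conj g).injective]

theorem card_St3_smul (g : G) (x y z : Ω) :
    Nat.card (St3 G (g • x) (g • y) (g • z)) = Nat.card (St3 G x y z) := by
  rw [St3, St, stabilizer_smul_eq_stabilizer_map_conj, stabilizer_smul_eq_stabilizer_map_conj,
    stabilizer_smul_eq_stabilizer_map_conj, ← map_inf _ _ _ (MulAut.conj g).injective,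
    ← map_inf _ _ _ (MulAut.conj g).injective, card_map_of_injective (MulAut.conj g).injective]

theorem St3_comm1 (x y z : Ω) : St3 G x y z = St3 G x z y := inf_right_comm _ _ _

theorem St3_comm2 (x y z : Ω) : St3 G x y z = St3 G y z x := by
  rw [St3, St3, St, St, inf_assoc, inf_comm]

theorem o_eq_ncard (x y z : Ω) : o G x y z = (orbit (St G x y) z).ncard := index_stabilizer _ _

variable [Finite G]

theorem o_pos (x y z : Ω) : 0 < o G x y z := Nat.pos_of_ne_zero index_ne_zero_of_finite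

theorem o_eq_one_iff {x y z : Ω} : o G x y z = 1 ↔ St G x y ≤ stabilizer G z := by
  rw [o, index_eq_one, eq_top_iff']
  exact ⟨fun h g hg => h ⟨g, hg⟩, fun h g => h g.2⟩

theorem o_smul (g : G) (x y z : Ω) : o G (g • x) (g • y) (g • z) = o G x y z := by
  have h1 := card_mul_o (G := G) (g • x) (g • y) (g • z)
  rw [card_St3_smul, card_St_smul, ← card_mul_o x y z] at h1
  exact Nat.eq_of_mul_eq_mul_left Nat.card_pos h1

theorem o_smul' {x y : Ω} (g : St G x y) (z : Ω) : o G x y (g • z) = o G x y z := by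
  have := o_smul (g : G) x y z
  rwa [show (g : G) • x = x from g.2.1, show (g : G) • y = y from g.2.2] at this

theorem le_ncard_of_o [Finite Ω] {x y z : Ω} {P : ℕ → Prop} (h : P (o G x y z)) :
    o G x y z ≤ {w | P (o G x y w)}.ncard := by
  rw [o_eq_ncard]
  apply Set.ncard_le_ncard _ (Set.toFinite _)
  rintro _ ⟨g, rfl⟩
  show P _
  rwa [o_smul']

theorem dvd_ncard_o [Finite Ω] (x y : Ω) (m : ℕ) : m ∣ {w | o G x y w = m}.ncard :=
  dvd_ncard_of_index (G := St G x y) _ (Set.toFinite _) (fun g w hw => (o_smul' g w).trans hw)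
    (fun _ hw => hw)

variable (h2 : ∀ a b c d : Ω, a ≠ b → c ≠ d → ∃ g : G, g • a = c ∧ g • b = d)
include h2

omit [Finite G] in
theorem card_St_eq {a b x y : Ω} (hab : a ≠ b) (hxy : x ≠ y) :
    Nat.card (St G x y) = Nat.card (St G a b) := by
  obtain ⟨g, rfl, rfl⟩ := h2 a b x y hab hxy
  exact card_St_smul g a b

theorem ncard_o_eq {a b x y : Ω} (hab : a ≠ b) (hxy : x ≠ y) (P : ℕ → Prop) :
    {w | P (o G x y w)}.ncard = {w | P (o G a b w)}.ncard := by
  obtain ⟨g, rfl, rfl⟩ := h2 a b x y hab hxy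
  symm
  refine Set.ncard_congr (fun w _ => g • w) (fun w hw => ?_) (fun _ _ _ _ e => MulAction.injective g e)
    (fun w hw => ⟨g⁻¹ • w, ?_, smul_inv_smul _ _⟩)
  · show P _
    rwa [o_smul]
  · show P _
    rwa [← o_smul g, smul_inv_smul]

theorem St_eq_of_le {x y p q : Ω} (hxy : x ≠ y) (hpq : p ≠ q) (hp : St G x y ≤ stabilizer G p)
    (hq : St G x y ≤ stabilizer G q) : St G x y = St G p q :=
  eq_of_le_of_card_ge (le_inf hp hq) (card_St_eq h2 hxy hpq).le

theorem o_eq_of_St3 {x y z x' y' z' : Ω} (hxy : x ≠ y) (hxy' : x' ≠ y')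
    (h : St3 G x y z = St3 G x' y' z') : o G x y z = o G x' y' z' := by
  have h1 := card_mul_o (G := G) x y z
  rw [h, card_St_eq h2 hxy' hxy, ← card_mul_o x' y' z'] at h1
  exact Nat.eq_of_mul_eq_mul_left Nat.card_pos h1

theorem same_stab [Finite Ω] {a b c : Ω} (hab : a ≠ b) (hc : o G a b c ≠ 1) :
    ({w | o G a b w = 1}.ncard - 1) ^ 2 ≤ {r | St3 G a b r = St3 G a b c}.ncard := by
  classical
  haveI := Fintype.ofFinite Ω
  rw [Ne, o_eq_one_iff] at hc
  let F : Ω → Ω → Finset Ω := fun x y => Finset.univ.filter fun w => o G x y w = 1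
  have hF : ∀ x y w, w ∈ F x y ↔ St G x y ≤ stabilizer G w := fun x y w => by
    simp [F, o_eq_one_iff]
  have hFc : ∀ x y, x ≠ y → (F x y).card = {w | o G a b w = 1}.ncard := fun x y hxy => by
    rw [← ncard_o_eq h2 hab hxy (· = 1), Set.ncard_eq_toFinset_card']
    congr 1
    ext w; simp [F]
  have hpc : ∀ p ∈ F a b, p ≠ c := by
    rintro p hp rfl
    exact hc ((hF _ _ _).1 hp)
  let L : Ω → Finset Ω := fun p => ((F p c).erase p).erase c
  have hL : ∀ p ∈ F a b, (L p).card = {w | o G a b w = 1}.ncard - 2 := fun p hp => by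
    rw [Finset.card_erase_of_mem, Finset.card_erase_of_mem, hFc p c (hpc p hp)]
    · omega
    · exact (hF _ _ _).2 inf_le_left
    · exact Finset.mem_erase.2 ⟨(hpc p hp).symm, (hF _ _ _).2 inf_le_right⟩
  have hLm : ∀ p r, r ∈ L p ↔ r ≠ c ∧ r ≠ p ∧ St G p c ≤ stabilizer G r := fun p r => by
    simp only [L, Finset.mem_erase, hF]
  have hd : ((F a b : Finset Ω) : Set Ω).PairwiseDisjoint L := by
    intro p hp q hq hpq
    rw [Function.onFun, Finset.disjoint_left]
    intro r h1 h2'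
    rw [hLm] at h1 h2'
    have e1 := St_eq_of_le h2 (hpc p hp) h1.1 h1.2.2 inf_le_right
    have e2 := St_eq_of_le h2 (hpc q hq) h1.1 h2'.2.2 inf_le_right
    have e3 := St_eq_of_le h2 (hpc p hp) hpq inf_le_left (by rw [e1, ← e2]; exact inf_le_left)
    have e4 := St_eq_of_le h2 hab hpq ((hF _ _ _).1 hp) ((hF _ _ _).1 hq)
    exact hc (by rw [e4, ← e3]; exact inf_le_right)
  have h1 : (insert c ((F a b).biUnion L)).card ≤ {r | St3 G a b r = St3 G a b c}.ncard := by
    rw [← Set.ncard_coe_finset]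
    apply Set.ncard_le_ncard _ (Set.toFinite _)
    intro r hr
    simp only [Finset.coe_insert, Set.mem_insert_iff, Finset.mem_coe, Finset.mem_biUnion] at hr
    rcases hr with rfl | ⟨p, hp, hr⟩
    · rfl
    · rw [hLm] at hr
      have e1 := St_eq_of_le h2 (hpc p hp) hr.2.1.symm inf_le_left hr.2.2
      have e2 := inf_eq_left.2 ((hF _ _ _).1 hp)
      calc St G a b ⊓ stabilizer G r = St G a b ⊓ St G p r := by rw [← inf_assoc, e2]
        _ = _ := by rw [← e1, ← inf_assoc, e2]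
  rw [Finset.card_insert_of_notMem (by simp [hLm]), Finset.card_biUnion hd,
    Finset.sum_congr rfl hL, Finset.sum_const, hFc a b hab, smul_eq_mul] at h1
  refine le_trans ?_ h1
  generalize {w | o G a b w = 1}.ncard = f
  rcases f with _ | _ | f <;> simp
  nlinarith

theorem triangle {a b c e : Ω} (hab : a ≠ b) (hc : o G a b c ≠ 1) {g : G} (hg : g ∈ St3 G a b c)
    (h1 : o G a b e ≤ 2) (h3 : o G a c e ≤ 2) (h4 : o G b c e ≤ 2) : g • e = e := by
  by_contra hge
  have hc' := hc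
  rw [Ne, o_eq_one_iff] at hc
  have hac : a ≠ c := by rintro rfl; exact hc inf_le_left
  have hbc : b ≠ c := by rintro rfl; exact hc inf_le_right
  have A : ∀ x y, g ∈ St G x y → o G x y e ≤ 2 → o G x y e = 2 ∧
      St3 G x y e ≤ stabilizer G (g • e) := by
    intro x y hxy h
    have h5 : o G x y e = 2 := by
      have := o_pos (G := G) x y e
      have : o G x y e ≠ 1 := fun h => hge (o_eq_one_iff.1 h hxy)
      omega
    refine ⟨h5, fun k hk => ?_⟩
    have := (normal_of_index_eq_two h5).conj_mem ⟨k, hk.1⟩ hk.2 (⟨g, hxy⟩ : St G x y)⁻¹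
    have e : (g⁻¹ * k * g⁻¹⁻¹) • e = e := this
    rwa [inv_inv, mul_smul, mul_smul, inv_smul_eq_iff] at e
  have B : ∀ x y z, x ≠ y → x ≠ z → g ∈ St3 G x y z → o G x y z ≠ 1 → o G x y e ≤ 2 → o G x z e ≤ 2 →
      St G x e = St G e (g • e) := by
    intro x y z hxy hxz hg hz p1 p2
    obtain ⟨q1, q2⟩ := A x y hg.1 p1
    obtain ⟨q3, q4⟩ := A x z ⟨hg.1.1, hg.2⟩ p2
    have hxe : x ≠ e := by rintro rfl; exact hge hg.1.1
    refine St_eq_of_le h2 hxe (Ne.symm hge) inf_le_right fun k hk => ?_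
    have r1 : o G x e y = 2 := (o_eq_of_St3 h2 hxe hxy (St3_comm1 _ _ _)).trans q1
    have r2 : o G x e z = 2 := (o_eq_of_St3 h2 hxe hxz (St3_comm1 _ _ _)).trans q3
    by_cases hy : k • y = y
    · exact q2 ⟨⟨hk.1, hy⟩, hk.2⟩
    by_cases hz' : k • z = z
    · exact q4 ⟨⟨hk.1, hz'⟩, hk.2⟩
    obtain ⟨m, hm, hm'⟩ : ∃ m ∈ St3 G x y e, m • z ≠ z := by
      by_contra hcon
      push Not at hcon
      apply hz
      rw [o_eq_one_iff]
      intro m hm
      by_cases hme : m • e = e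
      · exact hcon m ⟨hm, hme⟩
      · have := (mul_mem_iff_of_index_two q1 (a := ⟨g, hg.1⟩) (b := ⟨m, hm⟩)).2
          (iff_of_false hge hme)
        exact (mul_mem_cancel_left (H := stabilizer G z) hg.2).1 (hcon (g * m) ⟨mul_mem hg.1 hm, this⟩)
    have := (mul_mem_iff_of_index_two r2 (a := ⟨m, hm.1.1, hm.2⟩) (b := ⟨k, hk⟩)).2
      (iff_of_false hm' hz')
    exact (mul_mem_cancel_left (q2 hm)).1 (q4 ⟨⟨mul_mem hm.1.1 hk.1, this⟩, mul_mem hm.2 hk.2⟩)
  have e1 := B a b c hab hac hg hc' h1 h3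
  have e2 := B b a c hab.symm hbc ⟨⟨hg.1.2, hg.1.1⟩, hg.2⟩
    (by rwa [o_eq_of_St3 h2 hab.symm hab (z' := c) (by rw [St3, St3, St, St, inf_comm (stabilizer G b)])])
    (by rwa [o_eq_of_St3 h2 hab.symm hab (z' := e) (by rw [St3, St3, St, St, inf_comm (stabilizer G b)])])
    h4
  have hae : a ≠ e := by rintro rfl; exact hge hg.1.1
  have e3 : o G a e b = 1 := o_eq_one_iff.2 (by rw [e1, ← e2]; exact inf_le_left)
  have e4 := (A a b hg.1 h1).1
  rw [o_eq_of_St3 h2 hae hab (St3_comm1 _ _ _)] at e3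
  omega

theorem St3_eq_bot [Finite Ω] [FaithfulSMul G Ω] {a b c : Ω} (hab : a ≠ b) (hc : o G a b c ≠ 1)
    (hβ : {w | 3 ≤ o G a b w}.ncard < 2 * ({w | o G a b w = 1}.ncard - 1) ^ 2)
    (hc' : ∀ w, 3 ≤ o G a b w → 3 ≤ o G a b c) : St3 G a b c = ⊥ := by
  have key : ∀ x y z w : Ω, x ≠ y → 3 ≤ o G x y z → 3 ≤ o G x y w → St3 G x y z = St3 G x y w := by
    intro x y z w hxy hz hw
    rw [← ncard_o_eq h2 hab hxy (3 ≤ ·), ← ncard_o_eq h2 hab hxy (· = 1)] at hβ
    have p1 := same_stab h2 hxy (c := z) (by omega)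
    have p2 := same_stab h2 hxy (c := w) (by omega)
    by_contra hne
    have p3 := Set.ncard_union_eq (s := {r | St3 G x y r = St3 G x y z})
      (t := {r | St3 G x y r = St3 G x y w}) (Set.disjoint_left.2 fun r h1 h2 => hne (h1.symm.trans h2))
    have p4 := Set.ncard_le_ncard (s := {r | St3 G x y r = St3 G x y z} ∪ {r | St3 G x y r = St3 G x y w})
      (t := {w | 3 ≤ o G x y w}) (by
        rintro r (h | h)
        · exact hz.trans (o_eq_of_St3 h2 hxy hxy h).ge
        · exact hw.trans (o_eq_of_St3 h2 hxy hxy h).ge)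
    omega
  have hc1 := hc
  rw [Ne, o_eq_one_iff] at hc1
  have hac : a ≠ c := by rintro rfl; exact hc1 inf_le_left
  have hbc : b ≠ c := by rintro rfl; exact hc1 inf_le_right
  rw [eq_bot_iff]
  intro g hg
  refine eq_of_smul_eq_smul fun e : Ω => ?_
  rw [one_smul]
  by_contra hge
  have aux : ∀ x y z, x ≠ y → St3 G a b c = St3 G x y z → o G x y e ≤ 2 := by
    intro x y z hxy h
    by_contra h1
    obtain ⟨w, hw⟩ := Set.nonempty_of_ncard_ne_zero (s := {w | 3 ≤ o G a b w}) (by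
      rw [← ncard_o_eq h2 hab hxy (3 ≤ ·)]
      exact Set.ncard_ne_zero_of_mem (a := e) (show 3 ≤ _ by omega))
    have h3 := key x y z e hxy ((hc' w hw).trans (o_eq_of_St3 h2 hab hxy h).le) (by omega)
    exact hge (h3.le (h.le hg)).2
  exact hge (triangle h2 hab hc hg (aux _ _ _ hab rfl) (aux _ _ _ hac (St3_comm1 _ _ _))
    (aux _ _ _ hbc (St3_comm2 _ _ _)))

theorem not_three_cycle [Finite Ω] [FaithfulSMul G Ω] (hn : 7 ≤ Nat.card Ω) {a b c : Ω} (hab : a ≠ b)
    (hc : o G a b c = 3) : {w | 3 ≤ o G a b w}.ncard ≠ 3 := by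
  intro hβ
  haveI : Fact (Nat.Prime 3) := ⟨Nat.prime_three⟩
  obtain ⟨⟨g, hgab⟩, hg⟩ := exists_prime_orderOf_dvd_card' (G := St G a b) 3
    (hc ▸ Dvd.intro_left _ (card_mul_o a b c))
  rw [orderOf_mk] at hg
  have A : ∀ (k : G) (x y : Ω), orderOf k = 3 → x ≠ y → k ∈ St G x y →
      (fixedBy Ω k)ᶜ = {w | 3 ≤ o G x y w} := by
    intro k x y hk hxy hkxy
    have h3 : k ^ 3 = 1 := by rw [← hk, pow_orderOf_eq_one]
    have h4 : ∀ w : Ω, k ^ 2 • w = w → k • w = w := fun w hw => by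
      have : (k ^ 2) ^ 2 ∈ stabilizer G w := pow_mem hw 2
      rwa [← pow_mul, show 2 * 2 = 3 + 1 from rfl, pow_succ, h3, one_mul] at this
    apply Set.eq_of_subset_of_ncard_le _ _ (Set.toFinite _)
    · intro w hw
      by_contra h
      have := o_pos (G := G) x y w
      have h5 : o G x y w ∣ 2 := by
        simp only [Set.mem_setOf_eq, not_le] at h
        interval_cases o G x y w <;> simp
      have h6 : (⟨k, hkxy⟩ : St G x y) ^ 2 ∈ stabilizer (St G x y) w := by
        rcases (Nat.dvd_prime Nat.prime_two).1 h5 with h | h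
        · exact index_eq_one.1 h ▸ mem_top _
        · exact sq_mem_of_index_two h _
      exact hw (h4 w h6)
    · rw [ncard_o_eq h2 hab hxy (3 ≤ ·), hβ]
      obtain ⟨w, hw⟩ : ∃ w : Ω, k • w ≠ w := by
        by_contra h
        push Not at h
        rw [show k = 1 from eq_of_smul_eq_smul fun w : Ω => by rw [h, one_smul], orderOf_one] at hk
        omega
      have n1 : k • k • w ≠ k • w := (MulAction.injective k).ne hw
      have n2 : k • k • w ≠ w := fun e => hw (h4 w (by rwa [pow_two, mul_smul]))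
      rw [← Set.ncard_eq_three.2 ⟨w, k • w, k • k • w, hw.symm, n2.symm, n1.symm, rfl⟩]
      apply Set.ncard_le_ncard _ (Set.toFinite _)
      rintro _ (rfl | rfl | rfl)
      · exact hw
      · exact n1
      · exact (MulAction.injective k).ne n1
  have h1 := A g a b hg hab hgab
  have hcg : c ∈ (fixedBy Ω g)ᶜ := h1.ge hc.ge
  have hca : c ≠ a := by rintro rfl; exact hcg hgab.1
  obtain ⟨u, u1, u2⟩ := h2 c (g • c) c a (Ne.symm hcg) hca
  have hg' : orderOf (u * g * u⁻¹) = 3 := ((MulAut.conj u).orderOf_eq g).trans hg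
  have h3 := A _ _ _ hg' ((MulAction.injective u).ne hab)
    ⟨show _ • _ = _ by rw [conj_smul_smul, show g • a = a from hgab.1],
      show _ • _ = _ by rw [conj_smul_smul, show g • b = b from hgab.2]⟩
  have h4 := Set.ncard_union_add_ncard_inter (fixedBy Ω g)ᶜ (fixedBy Ω (u * g * u⁻¹))ᶜ
  have h5 : 0 < ((fixedBy Ω g)ᶜ ∩ (fixedBy Ω (u * g * u⁻¹))ᶜ).ncard :=
    (Set.ncard_pos (Set.toFinite _)).2 ⟨c, hcg, fun e => hca (by
      rw [mem_fixedBy, ← u1, conj_smul_smul, u2] at e; rw [e, u1])⟩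
  have h6 := Set.ncard_add_ncard_compl ((fixedBy Ω g)ᶜ ∪ (fixedBy Ω (u * g * u⁻¹))ᶜ)
  rw [show (fixedBy Ω (u * g * u⁻¹))ᶜ.ncard = 3 by
      rw [h3, ncard_o_eq h2 hab ((MulAction.injective u).ne hab) (3 ≤ ·), hβ],
    show (fixedBy Ω g)ᶜ.ncard = 3 by rw [h1, hβ]] at h4
  obtain ⟨x, y, hx, hy, hxy⟩ := (Set.one_lt_ncard_iff (s := ((fixedBy Ω g)ᶜ ∪
    (fixedBy Ω (u * g * u⁻¹))ᶜ)ᶜ)).1 (by omega)
  simp only [Set.compl_union, compl_compl] at hx hy
  have h7 := (A g x y hg hxy ⟨hx.1, hy.1⟩).trans (A _ x y hg' hxy ⟨hx.2, hy.2⟩).symm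
  refine (Set.ext_iff.1 h7 a).2 (fun e => ?_) hgab.1
  rw [mem_fixedBy, ← u2, conj_smul_smul, smul_left_cancel_iff, smul_left_cancel_iff] at e
  exact hcg e

end Cfsg.Agent.H2.Der
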