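import Cfsg.Agent.H2.Derange1
import Cfsg.Agent.H3.PrimeDegree

/-! The proportion of derangements. -/

set_option autoImplicit false

namespace Cfsg.Agent.H2.Der

open Subgroup MulAction

variable {G Ω : Type*} [Group G] [MulAction G Ω]

theorem sum_ite_ncard [Fintype Ω] (P : Ω → Prop) [DecidablePred P] :
    ∑ c, (if P c then 1 else 0) = {c | P c}.ncard := by
  rw [Finset.sum_boole, Set.ncard_eq_toFinset_card']
  simp

theorem orbit_bound [Finite G] [Fintype Ω] [FaithfulSMul G Ω]
    (h2 : ∀ a b c d : Ω, a ≠ b → c ≠ d → ∃ g : G, g • a = c ∧ g • b = d) (hn : 7 ≤ Nat.card Ω)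
    {a b : Ω} (hab : a ≠ b) (hd : 2 ≤ Nat.card (St G a b)) :
    (2 * Nat.card (St G a b) - 1) * ∑ c, Nat.card (St3 G a b c) ≤
      Nat.card Ω * Nat.card (St G a b) ^ 2 := by
  classical
  have hw := card_mul_o (G := G) a b
  have hpos := o_pos (G := G) a b
  have hs := fun c => same_stab h2 hab (c := c)
  have hbot := fun c => St3_eq_bot h2 hab (c := c)
  have h3c := fun c => not_three_cycle h2 hn hab (c := c)
  have hdv := dvd_ncard_o (G := G) a b
  have hk4 : {w | 4 ≤ o G a b w}.ncard = 0 ∨ 4 ≤ {w | 4 ≤ o G a b w}.ncard := by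
    refine or_iff_not_imp_left.2 fun h => ?_
    obtain ⟨w, hw⟩ := Set.nonempty_of_ncard_ne_zero h
    exact hw.trans (le_ncard_of_o (P := (4 ≤ ·)) hw)
  have hf2 : 2 ≤ {w | o G a b w = 1}.ncard := by
    rw [← Set.ncard_pair hab]
    apply Set.ncard_le_ncard _ (Set.toFinite _)
    rintro _ (rfl | rfl)
    · exact o_eq_one_iff.2 inf_le_left
    · exact o_eq_one_iff.2 inf_le_right
  have e1 : Nat.card Ω = {w | o G a b w = 1}.ncard + {w | o G a b w = 2}.ncard +
      {w | 3 ≤ o G a b w}.ncard := by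
    simp only [← sum_ite_ncard, ← Finset.sum_add_distrib]
    rw [Nat.card_eq_fintype_card, ← Finset.card_univ, Finset.card_eq_sum_ones]
    refine Finset.sum_congr rfl fun c _ => ?_
    have := hpos c
    split_ifs <;> omega
  have e2 : {w | 3 ≤ o G a b w}.ncard = {w | o G a b w = 3}.ncard + {w | 4 ≤ o G a b w}.ncard := by
    simp only [← sum_ite_ncard, ← Finset.sum_add_distrib]
    refine Finset.sum_congr rfl fun c _ => ?_
    split_ifs <;> omega
  have e3 : 12 * ∑ c, Nat.card (St3 G a b c) ≤ Nat.card (St G a b) * (12 * {w | o G a b w = 1}.ncard +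
      6 * {w | o G a b w = 2}.ncard + 4 * {w | o G a b w = 3}.ncard + 3 * {w | 4 ≤ o G a b w}.ncard) := by
    simp only [← sum_ite_ncard, Finset.mul_sum, ← Finset.sum_add_distrib]
    refine Finset.sum_le_sum fun c _ => ?_
    have := hpos c
    rw [← hw c]
    split_ifs <;> first | omega | nlinarith
  by_cases hβ : {w | 3 ≤ o G a b w}.ncard < 2 * ({w | o G a b w = 1}.ncard - 1) ^ 2
  · by_cases hβ0 : {w | 3 ≤ o G a b w}.ncard = 0
    · have h0 : ∀ w, ¬ 3 ≤ o G a b w := fun w hw => Set.ncard_ne_zero_of_mem (a := w) hw (Set.toFinite _) hβ0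
      obtain ⟨c, hc⟩ : ∃ c, o G a b c ≠ 1 := by
        by_contra h
        push Not at h
        have : St G a b = ⊥ := eq_bot_iff.2 fun g hg => eq_of_smul_eq_smul fun w : Ω => by
          rw [one_smul]; exact o_eq_one_iff.1 (h w) hg
        rw [this, card_bot] at hd
        omega
      have h4 := hw c
      rw [hbot c hc hβ (fun w hw => absurd hw (h0 w)), card_bot] at h4
      have h5 := h0 c
      have hd2 : Nat.card (St G a b) = 2 := by omega
      have h6 : ({w | o G a b w = 1}.ncard - 1) ^ 2 ≤ {w | o G a b w = 2}.ncard :=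
        (hs c hc).trans (Set.ncard_le_ncard (fun r hr => (o_eq_of_St3 h2 hab hab hr).trans (by omega)))
      have h7 : Nat.card Ω ≠ 7 := fun h => by
        have := card_eq_two_trans h2 hab
        rw [h, hd2] at this
        obtain ⟨d, h1, h2⟩ := H3.prime_degree_congr (p := 7) (m := 12) (by norm_num) h
          (fun g hg => eq_of_smul_eq_smul fun x : Ω => by rw [hg, one_smul]) this (pretrans_of_two h2)
        have := Nat.le_of_dvd (by norm_num) h1
        unfold Nat.ModEq at h2
        interval_cases d <;> omega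
      have h8 := hdv 2
      rw [hd2] at e3 ⊢
      generalize {w | o G a b w = 1}.ncard = f at *
      have : 2 * f ≤ {w | o G a b w = 2}.ncard := by
        obtain ⟨f, rfl⟩ : ∃ g, f = g + 1 := ⟨f - 1, by omega⟩
        rw [Nat.add_sub_cancel] at h6
        by_cases h : 3 ≤ f
        · nlinarith
        · omega
      omega
    · have h0 : ∀ w, 3 ≤ o G a b w → Nat.card (St3 G a b w) = 1 := fun w hw => by
        rw [hbot w (by omega) hβ (fun _ _ => hw), card_bot]
      obtain ⟨c, hc⟩ := Set.nonempty_of_ncard_ne_zero hβ0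
      have hc' : 3 ≤ o G a b c := hc
      have h4 : ∀ w, 3 ≤ o G a b w → o G a b w = Nat.card (St G a b) := fun w h => by
        rw [← hw w, h0 w h, one_mul]
      have h5 := hdv (Nat.card (St G a b))
      rw [show {w | o G a b w = Nat.card (St G a b)} = {w | 3 ≤ o G a b w} from
        Set.ext fun w => ⟨fun h => hc'.trans ((h4 c hc').trans h.symm).le, h4 w⟩] at h5
      have h6 : ({w | o G a b w = 1}.ncard - 1) ^ 2 ≤ {w | 3 ≤ o G a b w}.ncard :=
        (hs c (by omega)).trans (Set.ncard_le_ncard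
          (fun r hr => hc'.trans (o_eq_of_St3 h2 hab hab hr).ge))
      have e4 : 2 * ∑ c, Nat.card (St3 G a b c) ≤ Nat.card (St G a b) * (2 * {w | o G a b w = 1}.ncard +
          {w | o G a b w = 2}.ncard) + 2 * {w | 3 ≤ o G a b w}.ncard := by
        simp only [← sum_ite_ncard, Finset.mul_sum, ← Finset.sum_add_distrib]
        refine Finset.sum_le_sum fun c _ => ?_
        have := hpos c
        have := h0 c
        rw [← hw c]
        split_ifs <;> first | omega | nlinarith
      rw [h4 c hc'] at hc'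
      have h7 := Nat.le_of_dvd (by omega) h5
      rw [e1]
      generalize {w | o G a b w = 1}.ncard = f at *
      generalize {w | o G a b w = 2}.ncard = u at *
      generalize {w | 3 ≤ o G a b w}.ncard = β at *
      generalize ∑ c, Nat.card (St3 G a b c) = T at *
      obtain ⟨d, hd'⟩ : ∃ d, Nat.card (St G a b) = d + 1 := ⟨Nat.card (St G a b) - 1, by omega⟩
      rw [hd'] at h5 h7 hc' e4 ⊢
      obtain ⟨f, rfl⟩ : ∃ g, f = g + 1 := ⟨f - 1, by omega⟩
      rw [Nat.add_sub_cancel] at h6 hβ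
      have h8 : (f + 1) * (d + 1) ≤ β * d := by
        by_cases h : 3 ≤ f
        · have : 3 * f ≤ β := by nlinarith
          nlinarith
        · have : f = 1 ∨ f = 2 := by omega
          rcases this with rfl | rfl
          · omega
          · by_cases h : d = 2
            · subst h; omega
            · have : 3 ≤ d := by omega
              nlinarith
      rw [show 2 * (d + 1) - 1 = 2 * d + 1 by omega]
      nlinarith
  · have h4 := hdv 3
    have h5 : {w | 4 ≤ o G a b w}.ncard = 0 → {w | 3 ≤ o G a b w}.ncard ≠ 3 := fun h h' => by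
      obtain ⟨c, hc⟩ := Set.nonempty_of_ncard_ne_zero (s := {w | o G a b w = 3}) (by omega)
      exact h3c c hc h'
    have h6 : 6 * {w | o G a b w = 1}.ncard ≤ 2 * {w | 3 ≤ o G a b w}.ncard +
        {w | 4 ≤ o G a b w}.ncard := by
      generalize {w | o G a b w = 1}.ncard = f at *
      obtain ⟨f, rfl⟩ : ∃ g, f = g + 1 := ⟨f - 1, by omega⟩
      rw [Nat.add_sub_cancel] at hβ
      by_cases h : 3 ≤ f
      · nlinarith
      · have : f = 1 ∨ f = 2 := by omega
        rcases this with rfl | rfl <;> omega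
    have h7 : 2 * ∑ c, Nat.card (St3 G a b c) ≤ Nat.card Ω * Nat.card (St G a b) := by
      nlinarith
    calc _ ≤ Nat.card (St G a b) * (2 * ∑ c, Nat.card (St3 G a b c)) := by
          rw [← mul_assoc]; exact Nat.mul_le_mul_right _ (by omega)
      _ ≤ _ := by nlinarith

theorem burnside (G Ω : Type*) [Group G] [Fintype G] [MulAction G Ω] [Finite Ω] :
    ∑ g : G, (fixedBy Ω g).ncard = Nat.card (Quotient (orbitRel G Ω)) * Nat.card G := by
  classical
  haveI := Fintype.ofFinite Ω
  simp only [← Nat.card_coe_set_eq, Nat.card_eq_fintype_card]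
  exact sum_card_fixedBy_eq_card_orbits_mul_card_group G Ω

theorem sum_fixed [Fintype G] [Finite Ω] [Nonempty Ω] [h : IsPretransitive G Ω] :
    ∑ g : G, (fixedBy Ω g).ncard = Nat.card G := by
  haveI := (pretransitive_iff_subsingleton_quotient G Ω).1 h
  haveI : Nonempty (Quotient (orbitRel G Ω)) := Nonempty.map (Quotient.mk _) inferInstance
  rw [burnside, Nat.card_unique, one_mul]

theorem card_der [Fintype G] [Finite Ω] : Nat.card {g : G // ∀ ω : Ω, g • ω ≠ ω} =
    ∑ g : G, if (fixedBy Ω g).ncard = 0 then 1 else 0 := by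
  rw [sum_ite_ncard, ← Nat.card_coe_set_eq]
  refine Nat.card_congr (Equiv.subtypeEquivRight fun g => ?_)
  simp [Set.ncard_eq_zero (Set.toFinite _), Set.eq_empty_iff_forall_notMem]

theorem rank_three [Finite G] [Finite Ω] [Nontrivial Ω] [IsPretransitive G Ω]
    (h2 : ¬ ∀ a b c d : Ω, a ≠ b → c ≠ d → ∃ g : G, g • a = c ∧ g • b = d) :
    2 * Nat.card G ≤ Nat.card Ω * Nat.card {g : G // ∀ ω : Ω, g • ω ≠ ω} := by
  haveI := Fintype.ofFinite G
  push Not at h2
  obtain ⟨a, b, c, d, hab, hcd, h⟩ := h2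
  have h1 := burnside G (Ω × Ω)
  have h3 : 2 < Nat.card (Quotient (orbitRel G (Ω × Ω))) := by
    haveI := Fintype.ofFinite (Quotient (orbitRel G (Ω × Ω)))
    rw [Nat.card_eq_fintype_card, Fintype.two_lt_card_iff]
    refine ⟨Quotient.mk _ (a, a), Quotient.mk _ (a, b), Quotient.mk _ (c, d), fun e => ?_, fun e => ?_,
      fun e => ?_⟩
    · obtain ⟨g, hg⟩ := Quotient.exact e
      exact hab (MulAction.injective g ((congrArg Prod.fst hg).trans (congrArg Prod.snd hg).symm))
    · obtain ⟨g, hg⟩ := Quotient.exact e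
      exact hcd (MulAction.injective g ((congrArg Prod.fst hg).trans (congrArg Prod.snd hg).symm))
    · obtain ⟨g, hg⟩ := Quotient.exact e.symm
      exact h g (congrArg Prod.fst hg) (congrArg Prod.snd hg)
  have h4 : ∀ g : G, (fixedBy (Ω × Ω) g).ncard = (fixedBy Ω g).ncard * (fixedBy Ω g).ncard := fun g => by
    rw [← Set.ncard_prod]
    congr 1
    ext p
    simp [Prod.ext_iff]
  simp only [h4] at h1
  have h5 := sum_fixed (G := G) (Ω := Ω)
  have h6 : ∑ g : G, ((fixedBy Ω g).ncard * (fixedBy Ω g).ncard + Nat.card Ω) ≤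
      ∑ g : G, (Nat.card Ω * (if (fixedBy Ω g).ncard = 0 then 1 else 0) +
        (Nat.card Ω + 1) * (fixedBy Ω g).ncard) := by
    refine Finset.sum_le_sum fun g _ => ?_
    have := Set.ncard_le_card (fixedBy Ω g)
    split_ifs with h
    · simp [h]
    · have := Nat.pos_of_ne_zero h
      nlinarith
  simp only [Finset.sum_add_distrib, ← Finset.mul_sum, h1, h5, ← card_der, Finset.sum_const,
    Finset.card_univ, ← Nat.card_eq_fintype_card, smul_eq_mul] at h6
  nlinarith

theorem sum_pairs [Fintype G] [Fintype Ω]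
    (h2 : ∀ a b c d : Ω, a ≠ b → c ≠ d → ∃ g : G, g • a = c ∧ g • b = d) {a b : Ω} (hab : a ≠ b)
    (l : ℚ) : ∑ g : G, ((fixedBy Ω g).ncard : ℚ) * ((fixedBy Ω g).ncard - 1) * ((fixedBy Ω g).ncard - l) =
      Nat.card Ω * (Nat.card Ω - 1) *
        (∑ c, (Nat.card (St3 G a b c) : ℚ) - Nat.card (St G a b) * l) := by
  classical
  have h1 : ∀ g : G, ((fixedBy Ω g).ncard : ℚ) = ∑ c : Ω, if g • c = c then 1 else 0 := fun g => by
    have := sum_ite_ncard (fun c : Ω => g • c = c)
    exact_mod_cast this.symm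
  have h3 : ∀ g : G, ((fixedBy Ω g).ncard : ℚ) * ((fixedBy Ω g).ncard - 1) =
      ∑ p ∈ (Finset.univ : Finset Ω).offDiag, if g ∈ St G p.1 p.2 then 1 else 0 := fun g => by
    rw [Finset.sum_boole, show (Finset.univ : Finset Ω).offDiag.filter (fun p => g ∈ St G p.1 p.2) =
      (fixedBy Ω g).toFinset.offDiag by ext p; simp; tauto, Finset.offDiag_card,
      ← Set.ncard_eq_toFinset_card', Nat.cast_sub (Nat.le_mul_self _)]
    push_cast; ring
  have h4 : ∀ K : Subgroup G, (Nat.card K : ℚ) = ∑ g : G, if g ∈ K then 1 else 0 := fun K => by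
    have := sum_ite_ncard (fun g : G => g ∈ K)
    rw [← Nat.card_coe_set_eq] at this
    exact_mod_cast this.symm
  simp only [h3, Finset.sum_mul]
  rw [Finset.sum_comm, Finset.sum_congr rfl (g := fun _ => ∑ c, (Nat.card (St3 G a b c) : ℚ) -
    Nat.card (St G a b) * l), Finset.sum_const, Finset.offDiag_card, Finset.card_univ, nsmul_eq_mul,
    ← Nat.card_eq_fintype_card, Nat.cast_sub (Nat.le_mul_self _)]
  · push_cast; ring
  · rintro ⟨x, y⟩ hp
    obtain ⟨u, rfl, rfl⟩ := h2 a b x y hab (by simpa using hp)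
    rw [← card_St_smul u, Fintype.sum_equiv (toPerm u) (fun c => (Nat.card (St3 G a b c) : ℚ))
      (fun c => (Nat.card (St3 G (u • a) (u • b) c) : ℚ)) (fun c => by rw [← card_St3_smul u]; rfl)]
    simp only [h4, h1, mul_sub, Finset.sum_sub_distrib, Finset.mul_sum, Finset.sum_mul]
    rw [Finset.sum_comm]
    congr 1
    refine Finset.sum_congr rfl fun c _ => Finset.sum_congr rfl fun g _ => ?_
    simp only [St3, mem_inf (p := St G (u • a) (u • b)), mem_stabilizer_iff]
    split_ifs <;> simp_all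

theorem two_trans_bound [Finite G] [Finite Ω] [FaithfulSMul G Ω]
    (h2 : ∀ a b c d : Ω, a ≠ b → c ≠ d → ∃ g : G, g • a = c ∧ g • b = d) (hn : 7 ≤ Nat.card Ω)
    {a b : Ω} (hab : a ≠ b) (hd : 2 ≤ Nat.card (St G a b)) :
    2 * Nat.card G ≤ Nat.card Ω * Nat.card {g : G // ∀ ω : Ω, g • ω ≠ ω} := by
  classical
  haveI := Fintype.ofFinite G
  haveI := Fintype.ofFinite Ω
  haveI := pretrans_of_two h2
  haveI : Nonempty Ω := ⟨a⟩
  have h1 := orbit_bound h2 hn hab hd
  have h3 := card_eq_two_trans h2 hab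
  have h4 := sum_fixed (G := G) (Ω := Ω)
  have h5 := card_der (G := G) (Ω := Ω)
  have h6 := sum_pairs h2 hab
  set n := Nat.card Ω
  set d := Nat.card (St G a b)
  set D := Nat.card {g : G // ∀ ω : Ω, g • ω ≠ ω}
  have hn' : (7 : ℚ) ≤ n := by exact_mod_cast hn
  have hd' : (2 : ℚ) ≤ d := by exact_mod_cast hd
  let l : ℚ := n * (d - 1) / (2 * d - 1)
  have hl : l * (2 * d - 1) = n * (d - 1) := div_mul_cancel₀ _ (by linarith)
  have hl0 : 0 < l := div_pos (by nlinarith) (by linarith)
  have h7 : ∑ g : G, (1 - ((fixedBy Ω g).ncard : ℚ)) * ((fixedBy Ω g).ncard - l) ^ 2 ≤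
      ∑ g : G, (l ^ 2 * (if (fixedBy Ω g).ncard = 0 then 1 else 0) +
        if g = 1 then (1 - (n : ℚ)) * (n - l) ^ 2 else 0) := by
    refine Finset.sum_le_sum fun g _ => ?_
    by_cases hg : g = 1
    · subst hg
      simp only [fixedBy_one_eq_univ, Set.ncard_univ, if_true]
      split_ifs
      · omega
      · simp [n]
    · rw [if_neg hg]
      split_ifs with h
      · simp [h]
      · have : (1 : ℚ) ≤ (fixedBy Ω g).ncard := by exact_mod_cast Nat.pos_of_ne_zero h
        nlinarith [sq_nonneg (((fixedBy Ω g).ncard : ℚ) - l)]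
  have h8 : ∑ g : G, (1 - ((fixedBy Ω g).ncard : ℚ)) * ((fixedBy Ω g).ncard - l) ^ 2 =
      - ∑ g : G, ((fixedBy Ω g).ncard : ℚ) * ((fixedBy Ω g).ncard - 1) * ((fixedBy Ω g).ncard - 2 * l)
        - l ^ 2 * (∑ g : G, ((fixedBy Ω g).ncard : ℚ) - ∑ _g : G, 1) := by
    rw [← Finset.sum_sub_distrib, Finset.mul_sum, ← Finset.sum_neg_distrib, ← Finset.sum_sub_distrib]
    exact Finset.sum_congr rfl fun g _ => by ring
  have h4' : ∑ g : G, ((fixedBy Ω g).ncard : ℚ) = Nat.card G := by exact_mod_cast h4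
  have h5' : (D : ℚ) = ∑ g : G, if (fixedBy Ω g).ncard = 0 then 1 else 0 := by exact_mod_cast h5
  rw [h8, h6, h4', Finset.sum_add_distrib, ← Finset.mul_sum, ← h5', Finset.sum_ite_eq', if_pos
    (Finset.mem_univ _), Finset.sum_const, Finset.card_univ, ← Nat.card_eq_fintype_card, nsmul_eq_mul,
    mul_one, sub_self, mul_zero, sub_zero, ← Nat.cast_sum] at h7
  generalize ∑ c, Nat.card (St3 G a b c) = T at h1 h7
  have h1' : (2 * d - 1 : ℚ) * T ≤ n * d ^ 2 := by
    have : ((2 * d - 1 : ℕ) : ℚ) = 2 * d - 1 := by rw [Nat.cast_sub (by omega)]; push_cast; ring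
    rw [← this]; exact_mod_cast h1
  have h9 : 2 * d * l ^ 2 ≤ n * (d * (2 * l) - T) + (n - l) ^ 2 := by
    refine le_of_mul_le_mul_left ?_ (show (0 : ℚ) < 2 * d - 1 by linarith)
    have e : (2 * d - 1) * (n * (d * (2 * l)) + (n - l) ^ 2 - 2 * d * l ^ 2) = n * (n * d ^ 2) := by
      linear_combination (2 * n * d - 2 * n - l * (2 * d - 1) - n * (d - 1)) * hl
    nlinarith
  have h10 : 2 * ((n - 1) * d) ≤ (D : ℚ) := by
    refine le_of_mul_le_mul_left ?_ (show (0 : ℚ) < l ^ 2 by positivity)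
    nlinarith
  have h11 : 2 * ((n - 1) * d) ≤ D := by
    have : ((n - 1 : ℕ) : ℚ) = n - 1 := by rw [Nat.cast_sub (by omega)]; simp
    rw [← this] at h10
    exact_mod_cast h10
  rw [h3]
  nlinarith

end Cfsg.Agent.H2.Der
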