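import Cfsg.Agent.H2.Quat

/-! Structure of groups regular on non-zero vectors. -/

set_option autoImplicit false

namespace Cfsg.Agent.H2

open Subgroup Alg SL

variable {G V : Type*} [Group G] [AddCommGroup V] [DistribMulAction G V]

theorem rho_rel (hf : ∀ (g : G) (v : V), v ≠ 0 → g • v = v → g = 1) {g : G} (hg : g ≠ 1)
    {x : AddMonoid.End V} (h : (rho G V g - 1) * x = 0) : x = 0 := by
  apply AddMonoidHom.ext
  intro v
  by_contra h0
  refine hg (hf g (x v) h0 ?_)
  exact sub_eq_zero.1 (congrArg (fun φ : AddMonoid.End V => φ v) h)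

theorem rho_invol (hf : ∀ (g : G) (v : V), v ≠ 0 → g • v = v → g = 1) {z : G} (hz : z * z = 1)
    (hz1 : z ≠ 1) : rho G V z = -1 := by
  refine eq_neg_of_add_eq_zero_left (rho_rel hf hz1 ?_)
  have : rho G V z * rho G V z = 1 := by rw [← map_mul, hz, map_one]
  calc _ = rho G V z * rho G V z - 1 := by noncomm_ring
    _ = 0 := by rw [this, sub_self]

theorem rho_cube (hf : ∀ (g : G) (v : V), v ≠ 0 → g • v = v → g = 1) {c : G} (hc : O3 c) :
    rho G V c * rho G V c = -1 - rho G V c := by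
  have h1 : rho G V c * rho G V c + rho G V c + 1 = 0 := by
    refine rho_rel hf hc.2 ?_
    have : rho G V c * rho G V c * rho G V c = 1 := by
      rw [← map_mul, ← map_mul, ← pow_three', hc.1, map_one]
    calc _ = rho G V c * rho G V c * rho G V c - 1 := by noncomm_ring
      _ = 0 := by rw [this, sub_self]
  rw [← sub_eq_zero, ← h1]; abel

theorem centralizer_facts [Finite V] [Nontrivial V]
    (hreg : ∀ v w : V, v ≠ 0 → w ≠ 0 → ∃! g : G, g • v = w) {N : Subgroup G} (hN : Irred N V)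
    (hq : Nat.card V = Nat.card (comRing N V) ^ 2) :
    IsCyclic (centralizer (N : Set G)) ∧ ∃ q k : ℕ, Nat.card V = q ^ 2 ∧
      q = Nat.card (centralizer (N : Set G)) * k + 1 ∧
      (centralizer (N : Set G)).index = (q + 1) * k := by
  haveI := finite_of_reg hreg
  obtain ⟨h1, k, hk⟩ := isCyclic_of_le_field (rho_injective (fpf_of_reg hreg))
    (centralizer (N : Set G)) _ hN.injective_of_mem_comRing (fun a ha => rho_mem_comRing ha)
  haveI := finite_end (V := V)
  have h2 : 0 < Nat.card (comRing N V) := Nat.card_pos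
  refine ⟨h1, _, k, hq, by omega, ?_⟩
  have h3 := (centralizer (N : Set G)).card_mul_index
  have h4 := card_of_reg hreg
  have h5 : 0 < Nat.card (centralizer (N : Set G)) := Nat.card_pos
  apply Nat.eq_of_mul_eq_mul_left h5
  have h6 : Nat.card (comRing N V) = Nat.card (centralizer (N : Set G)) * k + 1 := by omega
  rw [h3, h6]
  rw [hq, h6] at h4
  nlinarith

theorem card_sq_Q8 [Finite V] [Nontrivial V]
    (hreg : ∀ v w : V, v ≠ 0 → w ≠ 0 → ∃! g : G, g • v = w) (ψ : Q8 →* G)
    (hψ : Function.Injective ψ) [ψ.range.Normal] :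
    IsCyclic (centralizer (ψ.range : Set G)) ∧ ∃ q k : ℕ, Nat.card V = q ^ 2 ∧
      q = Nat.card (centralizer (ψ.range : Set G)) * k + 1 ∧
      (centralizer (ψ.range : Set G)).index = (q + 1) * k := by
  have hf := fpf_of_reg hreg
  have hinj := rho_injective hf
  set a := ψ (QuaternionGroup.a 1)
  set b := ψ (QuaternionGroup.xa 0)
  have ha : a ∈ ψ.range := ⟨_, rfl⟩
  have hb : b ∈ ψ.range := ⟨_, rfl⟩
  have hab : a * b ≠ b * a := fun h => by
    rw [← map_mul, ← map_mul] at h
    exact absurd (hψ h) (by decide)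
  have hN : Irred ψ.range V := irred_of_noncomm hinj (tr_of_reg hreg) (fun h => hab (h a ha b hb))
  have hz : rho G V (ψ (QuaternionGroup.a 2)) = -1 := rho_invol hf
    (by rw [← map_mul, ← ψ.map_one]; congr 1) (fun h => absurd (hψ (h.trans ψ.map_one.symm)) (by decide))
  refine centralizer_facts hreg hN (card_eq_sq hinj hN ha hb hab (Q8_range_le ψ ha hb hab)
    (α₀ := -1) (α₁ := 0) (β₀ := -1) (β₁ := 0) (γ₀ := 0) (γ₁ := 0) (γ₂ := 0) (γ₃ := -1) ?_ ?_ ?_)
  · rw [← map_mul, ← map_mul, show (QuaternionGroup.a 1 * QuaternionGroup.a 1 : Q8) =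
      QuaternionGroup.a 2 by decide, hz]
    simp
  · rw [← map_mul, ← map_mul, show (QuaternionGroup.xa 0 * QuaternionGroup.xa 0 : Q8) =
      QuaternionGroup.a 2 by decide, hz]
    simp
  · rw [← map_mul, ← map_mul, show (QuaternionGroup.xa 0 * QuaternionGroup.a 1 : Q8) =
      QuaternionGroup.a 2 * (QuaternionGroup.a 1 * QuaternionGroup.xa 0) by decide, map_mul,
      map_mul, hz, map_mul, map_mul]
    simp [a, b]

theorem nearfield_cases [Finite V] [Nontrivial V]
    (hreg : ∀ v w : V, v ≠ 0 → w ≠ 0 → ∃! g : G, g • v = w) :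
    (∃ A : Subgroup G, A.Normal ∧ IsCyclic A ∧ Irred A V) ∨
    (∃ ψ : Q8 →* G, Function.Injective ψ ∧ ψ.range.Normal) ∨
    ∃ N : Subgroup G, N.Normal ∧ N ≠ ⊥ ∧ commutator N = ⊤ := by
  haveI := finite_of_reg hreg
  obtain ⟨A, -, hA⟩ := exists_maximal_ge_of_wellFoundedGT
    (fun A : Subgroup G => A.Normal ∧ IsMulCommutative A) ⊥ ⟨inferInstance, inferInstance⟩
  haveI := hA.1.1
  have hc := (isMulCommutative_iff' A).1 hA.1.2
  have hAmax : ∀ B : Subgroup G, B.Normal → IsMulCommutative B → A ≤ B → B = A :=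
    fun B h1 h2 h3 => le_antisymm (hA.2 ⟨h1, h2⟩ h3) h3
  by_cases hirr : Irred A V
  · exact Or.inl ⟨A, hA.1.1, isCyclic_of_comm_normal hreg A hc, hirr⟩
  right
  have hlt := lt_centralizer_of_reducible hreg A hc hirr
  obtain ⟨N, hle, hN⟩ := exists_minimal_le_of_wellFoundedLT
    (fun N : Subgroup G => N.Normal ∧ ¬ IsMulCommutative N) (centralizer (A : Set G))
    ⟨inferInstance, fun h => hlt.ne' (hAmax _ inferInstance h hlt.le)⟩
  haveI := hN.1.1
  obtain ⟨R, _, _, ρ, hρ⟩ := exists_fpf (fpf_of_reg hreg)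
  rcases minimal_nonabelian hρ.noPP hρ.uniq A hA.1.2 hAmax N hle hN.1.2
    (fun M h1 h2 h3 => le_antisymm h2 (hN.2 ⟨h1, h3⟩ h2)) with ⟨ψ, h1, h2⟩ | h
  · exact Or.inl ⟨ψ, h1, h2 ▸ hN.1.1⟩
  · refine Or.inr ⟨N, hN.1.1, ?_, h⟩
    rintro rfl
    exact hN.1.2 inferInstance

/-- a second generator of order three -/
def gX : SL25 := ⟨!![3, 4; 3, 1], by decide⟩

theorem sl25_case [Finite V] [Nontrivial V]
    (hreg : ∀ v w : V, v ≠ 0 → w ≠ 0 → ∃! g : G, g • v = w) (N : Subgroup G) (hN : N ≠ ⊥)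
    (hp : commutator N = ⊤) (h119 : Nat.card V ≠ 119 ^ 2) :
    ∃ φ : SL25 →* G, Function.Injective φ ∧ IsCyclic (centralizer (φ.range : Set G)) ∧
      ((Nat.card V = 121 ∧ Nat.card (centralizer (φ.range : Set G)) = 2) ∨
        (Nat.card V = 841 ∧ Nat.card (centralizer (φ.range : Set G)) = 14) ∨
        (Nat.card V = 3481 ∧ Nat.card (centralizer (φ.range : Set G)) = 58)) := by
  haveI := finite_of_reg hreg
  have hf := fpf_of_reg hreg
  have hinj := rho_injective hf
  obtain ⟨R, _, _, ρ, hρ⟩ := exists_fpf hf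
  haveI : Nontrivial N := (nontrivial_iff_ne_bot N).2 hN
  obtain ⟨c, d, e, hc, hd, he, hde⟩ := (hρ.subgroup N).triple_of_perfect hp
  have o3 : ∀ x : N, O3 x → O3 (x : G) := fun x hx =>
    ⟨congrArg Subtype.val hx.1, fun e => hx.2 (Subtype.ext e)⟩
  obtain ⟨φ, hφ, hn, hK, hi, -⟩ := hρ.triple (o3 c hc) ⟨o3 d hd.1, hd.2⟩ ⟨o3 e he.1, he.2⟩ hde
  set a := φ gC
  set b := φ gX
  have ha : a ∈ φ.range := ⟨_, rfl⟩
  have hb : b ∈ φ.range := ⟨_, rfl⟩
  have hab : a * b ≠ b * a := fun h => by
    rw [← map_mul, ← map_mul] at h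
    exact absurd (hφ h) (by decide +kernel)
  have o3' : ∀ x : SL25, x ^ 3 = 1 → x ≠ 1 → O3 (φ x) := fun x h1 h2 =>
    ⟨by rw [← map_pow, h1, map_one], fun h => h2 (hφ (h.trans φ.map_one.symm))⟩
  have ha3 : O3 a := o3' _ (by decide +kernel) (by decide +kernel)
  have hb3 : O3 b := o3' _ (by decide +kernel) (by decide +kernel)
  have hgen : ∀ L : Subgroup G, a ∈ L → b ∈ L → φ.range ≤ L := by
    intro L h1 h2
    refine range_le φ L h1 ?_ ?_
    · rw [show gD = gX * gX * gC * gX by decide +kernel]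
      simp only [map_mul]
      exact mul_mem (mul_mem (mul_mem h2 h2) h1) h2
    · rw [show gE = gX * gC * gX * gX by decide +kernel]
      simp only [map_mul]
      exact mul_mem (mul_mem (mul_mem h2 h1) h2) h2
  have hirr : Irred φ.range V := irred_of_noncomm hinj (tr_of_reg hreg) (fun h => hab (h a ha b hb))
  obtain ⟨t1, t2, -⟩ := T_central (rho_cube hf ha3) (rho_cube hf hb3)
  have ht : T (rho G V a) (rho G V b) ∈ comRing φ.range V := by
    rw [mem_comRing]
    intro n hn
    exact hgen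
      { carrier := {g | rho G V g * T (rho G V a) (rho G V b) = T (rho G V a) (rho G V b) * rho G V g}
        mul_mem' := fun {g h} hg hh => by
          simp only [Set.mem_setOf_eq, map_mul] at *
          rw [mul_assoc, hh, ← mul_assoc, hg, mul_assoc]
        one_mem' := by simp
        inv_mem' := fun {g} hg => by
          simp only [Set.mem_setOf_eq] at *
          calc _ = rho G V g⁻¹ * (T (rho G V a) (rho G V b) * rho G V g) * rho G V g⁻¹ := by
                rw [mul_assoc, mul_assoc, ← map_mul, mul_inv_cancel, map_one, mul_one]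
            _ = _ := by rw [← hg, ← mul_assoc, ← map_mul, inv_mul_cancel, map_one, one_mul] }
      t1 t2 hn
  obtain ⟨hcyc, q, k, hV, hq, hidx⟩ := centralizer_facts hreg hirr (card_eq_sq hinj hirr ha hb hab hgen
    (α₀ := -1) (α₁ := -1) (β₀ := -1) (β₁ := -1) (γ₀ := ⟨_, ht⟩ - 1) (γ₁ := -1) (γ₂ := -1) (γ₃ := -1)
    (by rw [rho_cube hf ha3]; simp [sub_eq_add_neg]) (by rw [rho_cube hf hb3]; simp [sub_eq_add_neg])
    (by rw [rule_of_T rfl]; simp [sub_eq_add_neg]))
  refine ⟨φ, hφ, hcyc, ?_⟩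
  set C := centralizer (φ.range : Set G) with hC
  haveI : C.Normal := normal_centralizer
  have h1 := card_inf_centralizer φ hφ
  rw [← hC] at h1
  have h2 := relIndex_mul_index (le_sup_right : C ≤ φ.range ⊔ C)
  rw [relIndex_sup_right] at h2
  have h3 : C.relIndex φ.range ∣ 120 := by
    rw [← card_SL25, Nat.card_congr (MonoidHom.ofInjective hφ).toEquiv]
    exact relIndex_dvd_card _ _
  have h4 : C.index = 60 ∨ C.index = 120 := by
    have h5 : C.relIndex φ.range = 60 ∨ C.relIndex φ.range = 120 := by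
      obtain ⟨m, hm⟩ := h3
      have : m ≤ 2 := by nlinarith
      interval_cases m <;> omega
    have h6 : (φ.range ⊔ C).index ≠ 0 := index_ne_zero_of_finite
    rcases h5 with h5 | h5 <;> rw [h5] at h2 <;> omega
  have h5 : 2 ∣ Nat.card C := by
    have hz : φ ((gC * gD) ^ 2) ∈ C := by
      rintro _ ⟨g, rfl⟩
      rw [← map_mul, ← map_mul]
      congr 1
      revert g
      decide +kernel
    have := orderOf_dvd_natCard C hz
    rwa [orderOf_injective φ hφ, orderOf_eq_prime (p := 2) (by decide +kernel) (by decide +kernel)]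
      at this
  have h6 : ¬ 3 ∣ Nat.card C := by
    intro h
    obtain ⟨x, hx⟩ := exists_prime_orderOf_dvd_card' 3 h
    have hx3 : O3 (x : G) := ⟨by rw [← hx]; exact congrArg Subtype.val (pow_orderOf_eq_one x),
      fun e => by rw [show x = 1 from Subtype.ext e, orderOf_one] at hx; exact absurd hx (by norm_num)⟩
    obtain ⟨g, hg⟩ := hK _ hx3
    have hg' : φ g ∈ C := hg ▸ x.2
    rw [← hg] at hx3
    rcases center_cert g (hφ (by rw [map_mul, map_mul]; exact (hg' _ ⟨_, rfl⟩).symm))
        (hφ (by rw [map_mul, map_mul]; exact (hg' _ ⟨_, rfl⟩).symm)) with h | h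
    · exact hx3.2 (by rw [h, map_one])
    · have := hx3.1
      rw [← map_pow, h, ← φ.map_one] at this
      exact absurd (hφ this) (by decide +kernel)
  rw [hV] at h119 ⊢
  rw [hidx] at h4
  generalize Nat.card C = m at *
  obtain ⟨m, rfl⟩ := h5
  have hk : 0 < k := Nat.pos_of_ne_zero (by rintro rfl; omega)
  have hm : 0 < m := Nat.pos_of_ne_zero (by rintro rfl; omega)
  have hk2 : k ≤ 7 := by
    by_contra hk3
    have : 16 ≤ 2 * m * k := by nlinarith
    nlinarith
  have h7 : (q = 11 ∧ m = 1) ∨ (q = 29 ∧ m = 7) ∨ (q = 59 ∧ m = 29) ∨ q = 119 := by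
    interval_cases k <;> omega
  rcases h7 with ⟨rfl, rfl⟩ | ⟨rfl, rfl⟩ | ⟨rfl, rfl⟩ | rfl
  · simp
  · simp
  · simp
  · exact absurd rfl h119

theorem sl25_prod {H : Type*} [Group H] [Finite H] (φ : SL25 →* H) (hφ : Function.Injective φ)
    {m : ℕ} [hm : Fact m.Prime] (h120 : Nat.Coprime m 120)
    (hC : m ∣ Nat.card (centralizer (φ.range : Set H))) (hH : Nat.card H = 120 * m) :
    Nonempty (H ≃* SL25 × Multiplicative (ZMod m)) := by
  obtain ⟨u, hu⟩ := exists_prime_orderOf_dvd_card' m hC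
  let ψ : Multiplicative (ZMod m) ≃* zpowers u := mulEquivOfPrimeCardEq (p := m) (by simp)
    (by rw [Nat.card_zpowers, hu])
  let ψ' : Multiplicative (ZMod m) →* H :=
    (centralizer (φ.range : Set H)).subtype.comp ((zpowers u).subtype.comp ψ.toMonoidHom)
  have hψ' : Function.Injective ψ' := Subtype.val_injective.comp (Subtype.val_injective.comp ψ.injective)
  let F := φ.noncommCoprod ψ' (fun g i => (ψ i).1.2 (φ g) ⟨g, rfl⟩)
  refine ⟨(MulEquiv.ofBijective F (Function.Injective.bijective_of_nat_card_le ?_ ?_)).symm⟩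
  · rw [injective_iff_map_eq_one]
    rintro ⟨g, i⟩ h
    have h1 : φ g * ψ' i = 1 := h
    have h2 : orderOf g = orderOf i := by
      rw [← orderOf_injective φ hφ, ← orderOf_injective ψ' hψ', eq_inv_of_mul_eq_one_left h1,
        orderOf_inv]
    have h3 : orderOf i ∣ m := by simpa using orderOf_dvd_natCard i
    have h4 : orderOf g ∣ 120 := card_SL25 ▸ orderOf_dvd_natCard g
    have h5 : orderOf g = 1 := Nat.eq_one_of_dvd_coprimes h120 (h2 ▸ h3) h4
    exact Prod.ext (orderOf_eq_one_iff.1 h5) (orderOf_eq_one_iff.1 (h2 ▸ h5))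
  · rw [hH, Nat.card_prod, card_SL25]; simp

theorem exists_perfect_of_not_solvable {H : Type*} [Group H] [Finite H]
    (h : ¬ Group.IsSolvable H) : ∃ N : Subgroup H, N ≠ ⊥ ∧ commutator N = ⊤ := by
  obtain ⟨N, -, hN⟩ := exists_minimal_le_of_wellFoundedLT
    (fun N : Subgroup H => ¬ Group.IsSolvable N) ⊤ (fun h' => h
      (Group.isSolvable_of_surjective (f := (⊤ : Subgroup H).subtype) (fun x => ⟨⟨x, trivial⟩, rfl⟩)))
  refine ⟨N, ?_, ?_⟩
  · rintro rfl
    exact hN.1 inferInstance
  · by_contra hne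
    apply hN.1
    haveI : Group.IsSolvable ((commutator N).map N.subtype) := by
      by_contra h1
      apply hne
      apply map_injective N.subtype_injective
      rw [← MonoidHom.range_eq_map, range_subtype]
      exact le_antisymm (map_subtype_le _) (hN.2 h1 (map_subtype_le _))
    haveI : Group.IsSolvable (commutator N) := Group.isSolvable_of_isSolvable_injective
      (f := (equivMapOfInjective (commutator N) N.subtype N.subtype_injective).toMonoidHom)
      (MulEquiv.injective _)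
    exact Group.isSolvable_of_ker_le_range (commutator N).subtype Abelianization.of (by simp)

end Cfsg.Agent.H2
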