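import Cfsg.Agent.H2.CoordHua
import Cfsg.Agent.H2.NF3
import Cfsg.Agent.H2.Count

/-! Zassenhaus groups with commutative kernel: the cases with many involutions. -/

set_option autoImplicit false

namespace Cfsg.Agent.H2

open Subgroup MulAction
open scoped MatrixGroups

universe u

theorem kernel_of_invol {B X : Type*} [Group B] [MulAction B X] [Finite B] [Finite X]
    [IsPretransitive B X] (hs : ∀ (g : B) (x y : X), x ≠ y → g • x = x → g • y = y → g = 1)
    {t : B} (ht : t * t = 1) (ht1 : t ≠ 1) {x₀ : X} (htx : t • x₀ = x₀) :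
    ∃ F : Subgroup B, F.Normal ∧ (∀ x ∈ F, ∀ y ∈ F, x * y = y * x) ∧
      ∀ x y : X, ∃! u : F, (u : B) • x = y := by
  haveI : Nonempty X := ⟨x₀⟩
  choose g hg using fun y => exists_smul_eq B x₀ y
  let z : X → B := fun y => g y * t * (g y)⁻¹
  have z2 : ∀ y, z y * z y = 1 := fun y => by
    calc _ = g y * (t * t) * (g y)⁻¹ := by simp only [z]; group
      _ = 1 := by rw [ht]; group
  have zi : ∀ y, (z y)⁻¹ = z y := fun y => inv_eq_of_mul_eq_one_right (z2 y)
  have z1 : ∀ y, z y ≠ 1 := fun y => by simpa [z] using ht1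
  have zf : ∀ y, z y • y = y := fun y => by
    simp only [z]
    rw [mul_smul, mul_smul, inv_smul_eq_iff.2 (hg y).symm, htx, hg]
  have zu : ∀ y w, z y • w = w → w = y := fun y w h => by
    by_contra hne
    exact z1 y (hs _ _ _ hne h (zf y))
  have zinj : Function.Injective z := fun y w h => zu w y (h ▸ zf y)
  have zfpf : ∀ y w, y ≠ w → ∀ x : X, (z y * z w) • x ≠ x := by
    intro y w hyw x hx
    have h1 : z w • x = z y • x := by
      rw [mul_smul, smul_eq_iff_eq_inv_smul, zi] at hx; exact hx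
    have h2 : (z y * z w) • z y • x = z y • x := by
      rw [mul_smul, ← h1, ← mul_smul (z w), z2, one_smul, h1]
    by_cases h3 : z y • x = x
    · exact hyw ((zu y x h3).symm.trans (zu w x (h1.trans h3)))
    · have := hs _ _ _ h3 h2 hx
      rw [mul_eq_one_iff_inv_eq, zi] at this
      exact hyw (zinj this)
  have hall : ∀ (y : X) (u : B), (∀ x : X, u • x ≠ x) → ∃ w, u = z y * z w := by
    intro y u hu
    have hb : Function.Bijective (fun w : {w // w ≠ y} =>
        (⟨z y * z w, zfpf y w w.2.symm⟩ : {g : B // ∀ x : X, g • x ≠ x})) := by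
      refine Function.Injective.bijective_of_nat_card_le (fun w w' e => Subtype.ext (zinj
        (mul_left_cancel (congrArg Subtype.val e)))) ?_
      have := card_fpf hs
      have := card_ne_add_one y
      omega
    obtain ⟨w, hw⟩ := hb.2 ⟨u, hu⟩
    exact ⟨w, (congrArg Subtype.val hw).symm⟩
  have hall' : ∀ (y : X) (u : B), (u = 1 ∨ ∀ x : X, u • x ≠ x) ↔ ∃ w, u = z y * z w := by
    intro y u
    constructor
    · rintro (rfl | h)
      · exact ⟨y, (z2 y).symm⟩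
      · exact hall y u h
    · rintro ⟨w, rfl⟩
      by_cases h : y = w
      · left; rw [h, z2]
      · exact Or.inr (zfpf y w h)
  let F : Subgroup B :=
    { carrier := {u | u = 1 ∨ ∀ x : X, u • x ≠ x}
      one_mem' := Or.inl rfl
      mul_mem' := fun {u v} hu hv => by
        obtain ⟨w, rfl⟩ := (hall' x₀ u).1 hu
        obtain ⟨w', rfl⟩ := (hall' w v).1 hv
        refine (hall' x₀ _).2 ⟨w', ?_⟩
        rw [mul_assoc, ← mul_assoc (z w), z2, one_mul]
      inv_mem' := fun {u} hu => by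
        obtain ⟨w, rfl⟩ := (hall' x₀ u).1 hu
        exact (hall' w _).2 ⟨x₀, by rw [mul_inv_rev, zi, zi]⟩ }
  have hinv : ∀ u ∈ F, z x₀ * u * z x₀ = u⁻¹ := by
    intro u hu
    obtain ⟨w, rfl⟩ := (hall' x₀ u).1 hu
    rw [← mul_assoc (z x₀) (z x₀), z2, one_mul, mul_inv_rev, zi, zi]
  refine ⟨F, normal_of_fpf (Ω := X) (fun _ => Iff.rfl), fun x hx y hy => ?_,
    regular_of_card (fun g hg hg1 => Or.resolve_left hg hg1) ?_⟩
  · apply inv_injective
    rw [← hinv _ (mul_mem hx hy), mul_inv_rev, ← hinv x hx, ← hinv y hy]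
    calc _ = z x₀ * x * 1 * y * z x₀ := by group
      _ = _ := by rw [← z2 x₀]; group
  · exact Nat.card_le_card_of_injective
      (fun w => (⟨z x₀ * z w, (hall' x₀ _).2 ⟨w, rfl⟩⟩ : F))
      (fun w w' e => zinj (mul_left_cancel (congrArg Subtype.val e)))

variable {G : Type u} {Ω : Type*} [Group G] [MulAction G Ω]

theorem exists_coord_of_stab {a b : Ω} (hab : a ≠ b) (F : Subgroup (stabilizer G a)) [hF : F.Normal]
    (hc : ∀ x ∈ F, ∀ y ∈ F, x * y = y * x)
    (hreg : ∀ x y : SubMulAction.ofStabilizer G a, ∃! u : F, (u : stabilizer G a) • x = y) :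
    ∃ (V : Type u) (_ : AddCommGroup V) (_ : DistribMulAction (St G a b) V),
      Nonempty (Coord G a b V) := by
  obtain ⟨V, _, _, C, -⟩ := exists_coord hab (F.map (stabilizer G a).subtype) (map_subtype_le _)
    (by
      rintro g hg _ ⟨u, hu, rfl⟩
      exact ⟨_, hF.conj_mem u hu ⟨g, hg⟩, rfl⟩)
    (by
      rintro _ ⟨x, hx, rfl⟩ _ ⟨y, hy, rfl⟩
      exact congrArg Subtype.val (hc x hx y hy))
    (by
      intro y z hy hz
      obtain ⟨u, hu, hu'⟩ := hreg ⟨y, hy⟩ ⟨z, hz⟩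
      refine ⟨⟨u.1.1, u.1, u.2, rfl⟩, congrArg Subtype.val hu, ?_⟩
      rintro ⟨_, v, hv, rfl⟩ h
      exact Subtype.ext (congrArg (fun w : F => w.1.1) (hu' ⟨v, hv⟩ (Subtype.ext h))))
  exact ⟨V, _, _, ⟨C⟩⟩

theorem exists_coord_of_even [Finite G] [Finite Ω]
    (h2 : ∀ a b c d : Ω, a ≠ b → c ≠ d → ∃ g : G, g • a = c ∧ g • b = d)
    (h3 : ∀ (g : G) (a b c : Ω), a ≠ b → b ≠ c → a ≠ c → g • a = a → g • b = b → g • c = c → g = 1)
    {a b : Ω} (hab : a ≠ b) (heven : Even (Nat.card (St G a b))) :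
    ∃ (V : Type u) (_ : AddCommGroup V) (_ : DistribMulAction (St G a b) V),
      Nonempty (Coord G a b V) := by
  obtain ⟨t, ht⟩ := exists_prime_orderOf_dvd_card' (G := St G a b) 2 heven.two_dvd
  haveI : IsPretransitive (stabilizer G a) (SubMulAction.ofStabilizer G a) := ⟨fun x y => by
    obtain ⟨g, h1, h2⟩ := h2 a x a y (Ne.symm x.2) (Ne.symm y.2)
    exact ⟨⟨g, h1⟩, Subtype.ext h2⟩⟩
  obtain ⟨F, hF, hc, hreg⟩ := kernel_of_invol (B := stabilizer G a)
    (X := SubMulAction.ofStabilizer G a) (fun g x y hxy hx hy => Subtype.ext (h3 g a x y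
      (Ne.symm x.2) (fun e => hxy (Subtype.ext e)) (Ne.symm y.2) g.2 (congrArg Subtype.val hx)
      (congrArg Subtype.val hy))) (t := ⟨t, t.2.1⟩)
    (Subtype.ext (congrArg (fun x : St G a b => (x : G))
      (by rw [← pow_two, ← ht, pow_orderOf_eq_one] : t * t = 1)))
    (fun e => by
      rw [show t = 1 from Subtype.ext (congrArg (fun x : stabilizer G a => (x : G)) e),
        orderOf_one] at ht
      exact absurd ht (by norm_num)) (x₀ := ⟨b, hab.symm⟩) (Subtype.ext t.2.2)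
  exact exists_coord_of_stab hab F hc hreg

theorem exists_coord_of_sharp3 [Finite G] [Finite Ω] (h : IsMultiplyPretransitive G Ω 3)
    (h3 : ∀ (g : G) (a b c : Ω), a ≠ b → b ≠ c → a ≠ c → g • a = a → g • b = b → g • c = c → g = 1)
    {a b c : Ω} (hab : a ≠ b) (hac : a ≠ c) (hbc : b ≠ c) :
    ∃ (V : Type u) (_ : AddCommGroup V) (_ : DistribMulAction (St G a b) V),
      Nonempty (Coord G a b V) := by
  haveI : Nontrivial (SubMulAction.ofStabilizer G a) :=
    ⟨⟨b, hab.symm⟩, ⟨c, hac.symm⟩, fun e => hbc (congrArg Subtype.val e)⟩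
  obtain ⟨p, j, hp, -, -, hP⟩ := sharp2_kernel (G := stabilizer G a)
    (Ω := SubMulAction.ofStabilizer G a) (fun x y x' y' hxy hxy' => by
      obtain ⟨g, h1, h2, h3⟩ := three_trans_iff.1 h a x y a x' y' (Ne.symm x.2)
        (fun e => hxy (Subtype.ext e)) (Ne.symm y.2) (Ne.symm x'.2)
        (fun e => hxy' (Subtype.ext e)) (Ne.symm y'.2)
      exact ⟨⟨g, h1⟩, Subtype.ext h2, Subtype.ext h3⟩)
    (fun g x y hxy hx hy => Subtype.ext (h3 g a x y
      (Ne.symm x.2) (fun e => hxy (Subtype.ext e)) (Ne.symm y.2) g.2 (congrArg Subtype.val hx)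
      (congrArg Subtype.val hy)))
  haveI := Fact.mk hp
  obtain ⟨P⟩ : Nonempty (Sylow p (stabilizer G a)) := inferInstance
  obtain ⟨h1, h2, -, h4, -⟩ := hP inferInstance P
  exact exists_coord_of_stab hab P h2 h4

theorem inv_of_swaps {a b : Ω} {s h : G} (hsa : s • a = b) (hsb : s • b = a) (hs : s * s = 1)
    (hsh : (s * h) * (s * h) = 1) : s * h * s⁻¹ = h⁻¹ := by
  rw [inv_eq_of_mul_eq_one_right hs, eq_inv_iff_mul_eq_one, ← hsh]
  group

theorem swaps_invol_of_even [Finite G] [Finite Ω]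
    (h2 : ∀ a b c d : Ω, a ≠ b → c ≠ d → ∃ g : G, g • a = c ∧ g • b = d)
    (h3 : ∀ (g : G) (a b c : Ω), a ≠ b → b ≠ c → a ≠ c → g • a = a → g • b = b → g • c = c → g = 1)
    {a b : Ω} (hab : a ≠ b) (heven : Even (Nat.card (St G a b)))
    (hd : 2 * Nat.card (St G a b) ≤ Nat.card Ω - 2) {x : G} (ha : x • a = b) (hb : x • b = a) :
    x * x = 1 := by
  have h := even_two_point_bound h2 h3 hab heven
  have h4 := Set.eq_of_subset_of_ncard_le
    (s := {x : G | (orderOf x = 2 ∧ (fixedBy Ω x).ncard = 2) ∧ x • a = b})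
    (t := {x : G | x • a = b ∧ x • b = a})
    (fun x hx => ⟨hx.2, swap_of_orderOf_two hx.1.1 hx.2⟩)
    (by rw [ncard_map_pair h2 hab hab.symm]; exact Nat.le_of_mul_le_mul_left (hd.trans h) two_pos)
  have h5 : x ∈ {x : G | x • a = b ∧ x • b = a} := ⟨ha, hb⟩
  rw [← h4] at h5
  rw [← pow_two, ← h5.1.1, pow_orderOf_eq_one]

namespace Coord

variable {V : Type*} {a b : Ω} [AddCommGroup V] [DistribMulAction (St G a b) V] (C : Coord G a b V)
include C

theorem two_trans_of_normal (h2 : ∀ a b c d : Ω, a ≠ b → c ≠ d → ∃ g : G, g • a = c ∧ g • b = d)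
    [Nontrivial V] (L : Subgroup G) [hL : L.Normal] (ht : ∀ v, C.t v ∈ L) :
    ∀ x y x' y' : Ω, x ≠ y → x' ≠ y' → ∃ g : L, g • x = x' ∧ g • y = y' := by
  have h1 : ∀ w x y : Ω, x ≠ w → y ≠ w → ∃ g : L, g • w = w ∧ g • x = y := by
    intro w x y hx hy
    obtain ⟨k, k1, k2⟩ := h2 a b w x C.ne hx.symm
    obtain ⟨v, hv⟩ := C.ι_surj (k⁻¹ • y) (fun e => hy (by rw [← k1, ← e, smul_inv_smul]))
    refine ⟨⟨_, hL.conj_mem _ (ht v) k⟩, ?_, ?_⟩
    · show (k * C.t v * k⁻¹) • w = w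
      rw [← k1, conj_smul_smul, C.t_a]
    · show (k * C.t v * k⁻¹) • x = y
      rw [← k2, conj_smul_smul, C.t_b, hv, smul_inv_smul]
  have h4 : ∀ x y : Ω, ∃ g : L, g • x = y := by
    intro x y
    obtain ⟨w, hx, hy⟩ : ∃ w, x ≠ w ∧ y ≠ w := by
      by_contra h
      push Not at h
      obtain ⟨v, hv⟩ := exists_ne (0 : V)
      have e1 := h a
      have e2 := h (C.ι 0)
      have e3 := h (C.ι v)
      have n1 := C.ι_ne 0
      have n2 := C.ι_ne v
      have n3 := C.ι_inj.ne hv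
      by_cases p1 : x = a
      · exact n3 ((e3 (p1 ▸ n2.symm)).symm.trans (e2 (p1 ▸ n1.symm)))
      · by_cases p2 : x = C.ι 0
        · exact n2 ((e3 (p2 ▸ n3.symm)).symm.trans (e1 p1))
        · exact n1 ((e2 p2).symm.trans (e1 p1))
    obtain ⟨g, -, hg⟩ := h1 w x y hx hy
    exact ⟨g, hg⟩
  intro x y x' y' hxy hxy'
  obtain ⟨g, hg⟩ := h4 x x'
  obtain ⟨k, k1, k2⟩ := h1 x' (g • y) y' (fun e => hxy ((smul_left_cancel_iff g).1 (hg.trans e.symm)))
    hxy'.symm
  exact ⟨k * g, by rw [mul_smul, hg, k1], by rw [mul_smul, k2]⟩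

theorem neg_of_invol (h3 : ∀ (g : G) (a b c : Ω), a ≠ b → b ≠ c → a ≠ c → g • a = a → g • b = b →
    g • c = c → g = 1) {z : St G a b} (hz : z * z = 1) (hz1 : z ≠ 1) (v : V) : z • v = -v :=
  congrArg (fun φ : AddMonoid.End V => φ v) (rho_invol (C.fpf h3) hz hz1)

theorem no_two_torsion (h3 : ∀ (g : G) (a b c : Ω), a ≠ b → b ≠ c → a ≠ c → g • a = a → g • b = b →
    g • c = c → g = 1) {z : St G a b} (hz : z * z = 1) (hz1 : z ≠ 1) (v : V) (hv : v + v = 0) :
    v = 0 := by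
  by_contra h
  exact hz1 (C.fpf h3 z v h (by rw [C.neg_of_invol h3 hz hz1, neg_eq_of_add_eq_zero_left hv]))

theorem reg_of_three (h : IsMultiplyPretransitive G Ω 3)
    (h3 : ∀ (g : G) (a b c : Ω), a ≠ b → b ≠ c → a ≠ c → g • a = a → g • b = b →
      g • c = c → g = 1) : ∀ v w : V, v ≠ 0 → w ≠ 0 → ∃! g : St G a b, g • v = w := by
  intro v w hv hw
  obtain ⟨g, hg⟩ := C.trans_of_three h v w hv hw
  refine ⟨g, hg, fun k hk => ?_⟩
  rw [← inv_mul_eq_one]
  exact C.fpf h3 _ v hv (by rw [mul_smul, hg, ← hk, inv_smul_smul])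

theorem pgl_of_inverted [FaithfulSMul G Ω] [Finite Ω] [Nontrivial V]
    (h : IsMultiplyPretransitive G Ω 3) {s : G} (hsa : s • a = b) (hsb : s • b = a)
    (hinv : ∀ x ∈ St G a b, s * x * s⁻¹ = x⁻¹) (K : Type) [Field K] [Finite K]
    (hK : Nat.card K + 1 = Nat.card Ω) : Nonempty (G ≃* PGL(2, K)) := by
  haveI := C.finite
  have hc : ∀ x y : St G a b, x * y = y * x := by
    intro x y
    apply Subtype.ext
    apply inv_injective
    rw [← hinv _ (x * y).2, coe_mul, coe_mul, mul_inv_rev, ← hinv x x.2, ← hinv y y.2]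
    group
  have htr := C.trans_of_three h
  obtain ⟨φ, hφ, -⟩ := (exists_field_coord (⊤ : Subgroup (St G a b)) (fun x _ y _ => hc x y) (V := V) (by
    intro W hW
    rw [or_iff_not_imp_left, eq_top_iff]
    intro hne y _
    obtain ⟨⟨x, hxW⟩, hx⟩ := (AddSubgroup.ne_bot_iff_exists_ne_zero).1 hne
    by_cases hy : y = 0
    · rw [hy]; exact W.zero_mem
    · obtain ⟨g, rfl⟩ := htr x y (fun e => hx (Subtype.ext e)) hy
      exact hW g trivial x hxW)).2 K (by have := C.card; omega)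
  have hlin := fun g => hφ g (fun x _ => hc x g)
  have nz : ∀ x : K, x ≠ 0 → φ x ≠ 0 := fun x hx e => hx (φ.injective (e.trans (map_zero φ).symm))
  obtain ⟨v, hv⟩ := C.ι_surj (s • C.ι (φ 1)) (fun e => nz 1 one_ne_zero (C.ι_inj
    (((smul_left_cancel_iff s).1 (e.trans hsb.symm)).trans C.ι_zero.symm)))
  obtain ⟨l, rfl⟩ := φ.surjective v
  refine ((C.mobius φ hlin hsa hsb (l := l) ?_ fun x hx => ?_).resolve_right fun h' => h'.1 h).2
  · rintro rfl
    rw [map_zero, C.ι_zero] at hv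
    exact C.ι_ne _ ((smul_left_cancel_iff s).1 (hv.symm.trans hsa.symm))
  · obtain ⟨g, hg⟩ := htr (φ 1) (φ x) (nz 1 one_ne_zero) (nz x hx)
    obtain ⟨c, -, hc'⟩ := hlin g
    rw [hc', mul_one, φ.apply_eq_iff_eq] at hg
    subst hg
    have e1 : s * g = (g : G)⁻¹ * s := by rw [← hinv g g.2]; group
    calc s • C.ι (φ c) = (s * g) • C.ι (φ 1) := by rw [mul_smul, C.h_ι, hc', mul_one]
      _ = _ := by
        rw [e1, mul_smul, ← hv, inv_smul_eq_iff, C.h_ι, hc', mul_div_cancel₀ _ hx]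

theorem psl_of_even [FaithfulSMul G Ω] [Finite G] [Finite Ω]
    (h2 : ∀ a b c d : Ω, a ≠ b → c ≠ d → ∃ g : G, g • a = c ∧ g • b = d)
    (h3 : ∀ (g : G) (a b c : Ω), a ≠ b → b ≠ c → a ≠ c → g • a = a → g • b = b → g • c = c → g = 1)
    (heven : Even (Nat.card (St G a b))) (hd : 2 * Nat.card (St G a b) ≤ Nat.card Ω - 2) :
    (∃ p f : ℕ, p.Prime ∧ p ≠ 2 ∧ 0 < f ∧ Nat.card Ω = p ^ f + 1) ∧
      ∀ (K : Type) [Field K] [Finite K], Nat.card K + 1 = Nat.card Ω → Nonempty (G ≃* PSL(2, K)) := by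
  haveI := C.finite
  have hcard := C.card
  have hpos : 0 < Nat.card (St G a b) := Nat.card_pos
  haveI : Nontrivial V := Finite.one_lt_card_iff_nontrivial.1 (by omega)
  obtain ⟨s, hsa, hsb⟩ := h2 a b b a C.ne C.ne.symm
  have hsw := fun x => swaps_invol_of_even h2 h3 C.ne heven hd (x := x)
  have T := C.torus_of_subgroup ⊤ (fun _ => trivial) trivial (hsw s hsa hsb) hsa
    (fun x hx _ => inv_of_swaps hsa hsb (hsw s hsa hsb) (hsw _ (by rw [mul_smul, hx.1, hsa])
      (by rw [mul_smul, hx.2, hsb])))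
  rw [top_subgroupOf] at T
  obtain ⟨z, hz⟩ := exists_prime_orderOf_dvd_card' (G := St G a b) 2 heven.two_dvd
  have hz2 : z * z = 1 := by rw [← pow_two, ← hz, pow_orderOf_eq_one]
  have hz1 : z ≠ 1 := by rintro rfl; simp at hz
  have h2t := C.no_two_torsion h3 hz2 hz1
  obtain ⟨hirr, hK⟩ := T.odd_core h3 h2t (Or.inr ⟨z, trivial, C.neg_of_invol h3 hz2 hz1⟩)
  obtain ⟨⟨p, f, hp, hf, hV⟩, hφ⟩ := exists_field_coord ⊤ T.comm hirr
  refine ⟨⟨p, f, hp, ?_, hf, by omega⟩, fun K _ _ hcK => ?_⟩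
  · rintro rfl
    obtain ⟨v, hv⟩ := exists_prime_addOrderOf_dvd_card' (G := V) 2 (hV ▸ dvd_pow_self 2 hf.ne')
    have := h2t v (by rw [← two_nsmul, ← hv, addOrderOf_nsmul_eq_zero])
    rw [this, addOrderOf_zero] at hv
    exact absurd hv (by norm_num)
  · obtain ⟨φ, hlin, -⟩ := hφ K (by omega)
    have hlin' := fun g => hlin g (fun x hx => T.comm x hx g trivial)
    obtain ⟨l, hl, hs, -⟩ := hK K φ (fun g _ => hlin' g)
    refine ((C.mobius φ hlin' hsa hsb hl hs).resolve_left fun h => ?_).2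
    have := card_of_reg (C.reg_of_three h.1 h3)
    omega

end Coord

end Cfsg.Agent.H2
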