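import Cfsg.Agent.H2.Zass1

/-! Zassenhaus groups with two point stabilisers of odd order. -/

set_option autoImplicit false

namespace Cfsg.Agent.H2

open Subgroup MulAction
open scoped MatrixGroups commutatorElement

universe u

theorem commutator_le_centralizer_of_cyclic {G : Type*} [Group G] (A T : Subgroup G) [IsCyclic A]
    (h : ∀ g ∈ T, ∀ x ∈ A, g * x * g⁻¹ ∈ A) : ⁅T, T⁆ ≤ centralizer (A : Set G) := by
  obtain ⟨a, ha⟩ := IsCyclic.exists_generator (α := A)
  have h1 : ∀ x ∈ A, ∃ k : ℤ, x = (a : G) ^ k := fun x hx => by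
    obtain ⟨k, hk⟩ := ha ⟨x, hx⟩
    exact ⟨k, (congrArg Subtype.val hk).symm⟩
  rw [commutator_le]
  intro g hg k hk x hx
  obtain ⟨i, hi⟩ := h1 _ (h g hg a a.2)
  obtain ⟨j, hj⟩ := h1 _ (h k hk a a.2)
  have h2 : ∀ y ∈ A, g * (k * y * k⁻¹) * g⁻¹ = k * (g * y * g⁻¹) * k⁻¹ := by
    intro y hy
    obtain ⟨m, rfl⟩ := h1 y hy
    rw [← conj_zpow, ← conj_zpow, ← conj_zpow, ← conj_zpow, hi, hj, ← conj_zpow, ← conj_zpow, hi, hj,
      ← zpow_mul, ← zpow_mul, ← zpow_mul, ← zpow_mul, mul_left_comm]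
  have h3 := h2 _ (h _ (inv_mem hg) _ (h _ (inv_mem hk) x hx))
  rw [commutatorElement_def]
  calc x * (g * k * g⁻¹ * k⁻¹) = k * (g * (g⁻¹ * (k⁻¹ * x * k⁻¹⁻¹) * g⁻¹⁻¹) * g⁻¹) * k⁻¹ *
        (g * k * g⁻¹ * k⁻¹) := by group
    _ = _ := by rw [← h3]; group

theorem eq_one_of_sq_of_odd {G : Type*} [Group G] (h : Odd (Nat.card G)) {x : G} (hx : x ^ 2 = 1) :
    x = 1 := by
  rw [← orderOf_eq_one_iff]
  exact Nat.eq_one_of_dvd_coprimes (Nat.coprime_two_left.2 h) (orderOf_dvd_of_pow_eq_one hx)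
    (orderOf_dvd_natCard x)

theorem exists_sq_of_odd {G : Type*} [Group G] (h : Odd (Nat.card G)) (x : G) :
    ∃ k : ℕ, (x ^ k) ^ 2 = x := by
  obtain ⟨m, hm⟩ := h
  refine ⟨m + 1, ?_⟩
  rw [← pow_mul, show (m + 1) * 2 = Nat.card G + 1 by omega, pow_succ, pow_card_eq_one', one_mul]

variable {G : Type u} {Ω : Type*} [Group G] [MulAction G Ω]

/-- setwise stabiliser of two points -/
def St2 (G : Type*) {Ω : Type*} [Group G] [MulAction G Ω] (a b : Ω) : Subgroup G where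
  carrier := {g | (g • a = a ∧ g • b = b) ∨ (g • a = b ∧ g • b = a)}
  one_mem' := Or.inl ⟨one_smul _ _, one_smul _ _⟩
  mul_mem' := by
    rintro g h (⟨h1, h2⟩ | ⟨h1, h2⟩) (⟨h3, h4⟩ | ⟨h3, h4⟩) <;>
      simp only [Set.mem_setOf_eq, mul_smul, h1, h2, h3, h4, and_self, true_or, or_true]
  inv_mem' := by
    rintro g (⟨h1, h2⟩ | ⟨h1, h2⟩)
    · exact Or.inl ⟨inv_smul_eq_iff.2 h1.symm, inv_smul_eq_iff.2 h2.symm⟩
    · exact Or.inr ⟨inv_smul_eq_iff.2 h2.symm, inv_smul_eq_iff.2 h1.symm⟩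

theorem mem_St2_of_conj
    (h3 : ∀ (g : G) (a b c : Ω), a ≠ b → b ≠ c → a ≠ c → g • a = a → g • b = b → g • c = c → g = 1)
    {a b : Ω} (hab : a ≠ b) {x g : G} (hx : x ∈ St G a b) (hx1 : x ≠ 1)
    (hg : g * x * g⁻¹ ∈ St G a b) : g ∈ St2 G a b := by
  have h := fixedBy_eq_pair h3 (g := g * x * g⁻¹) (by simpa using hx1) hab hg.1 hg.2
  have h1 : g • a ∈ fixedBy Ω (g * x * g⁻¹) := by
    rw [mem_fixedBy, conj_smul_smul, show x • a = a from hx.1]
  have h2 : g • b ∈ fixedBy Ω (g * x * g⁻¹) := by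
    rw [mem_fixedBy, conj_smul_smul, show x • b = b from hx.2]
  rw [h] at h1 h2
  have h4 : g • a ≠ g • b := (MulAction.injective g).ne hab
  rcases h1 with h1 | h1 <;> rcases h2 with h2 | h2
  · exact absurd (h1.trans h2.symm) h4
  · exact Or.inl ⟨h1, h2⟩
  · exact Or.inr ⟨h1, h2⟩
  · exact absurd (h1.trans h2.symm) h4

theorem sq_mem_St {a b : Ω} {g : G} (hg : g ∈ St2 G a b) : g ^ 2 ∈ St G a b := by
  rcases hg with ⟨h1, h2⟩ | ⟨h1, h2⟩ <;>
    exact ⟨show _ • a = a by simp only [pow_two, mul_smul, h1, h2],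
      show _ • b = b by simp only [pow_two, mul_smul, h1, h2]⟩

theorem conj_mem_St {a b : Ω} {g x : G} (hg : g ∈ St2 G a b) (hx : x ∈ St G a b) :
    g * x * g⁻¹ ∈ St G a b := by
  have h1 : x • a = a := hx.1
  have h2 : x • b = b := hx.2
  rcases hg with ⟨h3, h4⟩ | ⟨h3, h4⟩
  · exact ⟨show _ • a = a by rw [mul_smul, mul_smul, inv_smul_eq_iff.2 h3.symm, h1, h3],
      show _ • b = b by rw [mul_smul, mul_smul, inv_smul_eq_iff.2 h4.symm, h2, h4]⟩
  · exact ⟨show _ • a = a by rw [mul_smul, mul_smul, inv_smul_eq_iff.2 h4.symm, h2, h4],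
      show _ • b = b by rw [mul_smul, mul_smul, inv_smul_eq_iff.2 h3.symm, h1, h3]⟩

theorem odd_cyclic_inverted [Finite G]
    (h3 : ∀ (g : G) (a b c : Ω), a ≠ b → b ≠ c → a ≠ c → g • a = a → g • b = b → g • c = c → g = 1)
    {a b : Ω} (hab : a ≠ b) (hodd : Odd (Nat.card (St G a b))) [IsZGroup (St G a b)]
    (hnil : ∀ q : ℕ, q.Prime → q ∣ Nat.card (St G a b) →
      ¬ ∃ N : Subgroup G, N.Normal ∧ N.index = q ^ (Nat.card G).factorization q) :
    IsCyclic (St G a b) ∧ ∀ s : G, s • a = b → s • b = a → ∀ h ∈ St G a b, s * h * s⁻¹ = h⁻¹ := by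
  set H := St G a b with hH
  set T := St2 G a b with hT
  have hHT : H ≤ T := fun g hg => Or.inl hg
  have hdec : ∀ s : G, s • a = b → s • b = a → ∀ g ∈ T, g ∈ H ∨ g * s⁻¹ ∈ H := by
    rintro s hsa hsb g (h | h)
    · exact Or.inl h
    · refine Or.inr ⟨?_, ?_⟩
      · show _ • a = a
        rw [mul_smul, inv_smul_eq_iff.2 hsb.symm, h.2]
      · show _ • b = b
        rw [mul_smul, inv_smul_eq_iff.2 hsa.symm, h.1]
  have h1 : ⁅T, T⁆ ≤ H := by
    rw [commutator_le]
    rintro x hx y hy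
    have e : ⁅x, y⁆ = (x * y) ^ 2 * (y⁻¹ * (x⁻¹) ^ 2 * y⁻¹⁻¹) * (y⁻¹) ^ 2 := by
      rw [commutatorElement_def, pow_two, pow_two, pow_two]; group
    rw [e]
    exact mul_mem (mul_mem (sq_mem_St (mul_mem hx hy)) (conj_mem_St (inv_mem hy)
      (sq_mem_St (inv_mem hx)))) (sq_mem_St (inv_mem hy))
  have h2 : ⁅T, T⁆ = H := by
    by_contra hne
    obtain ⟨q, hq, hqd⟩ := Nat.exists_prime_and_dvd
      (show (⁅T, T⁆ : Subgroup G).relIndex H ≠ 1 from fun h => hne (le_antisymm h1 (relIndex_eq_one.1 h)))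
    haveI := Fact.mk hq
    have hqH : q ∣ Nat.card H := hqd.trans (relIndex_dvd_card _ _)
    have hq2 : Nat.Coprime 2 q := Nat.coprime_two_left.2 (hodd.of_dvd_nat hqH)
    obtain ⟨⟨x, hxH⟩, hx⟩ := exists_prime_orderOf_dvd_card' q hqH
    rw [orderOf_mk] at hx
    have hx1 : x ≠ 1 := by rintro rfl; exact hq.one_lt.ne (by simpa using hx)
    obtain ⟨R, hR⟩ := (IsPGroup.of_card (G := zpowers x) (n := 1)
      (by rw [Nat.card_zpowers, hx, pow_one])).exists_le_sylow
    have hxR : x ∈ (R : Subgroup G) := hR (mem_zpowers x)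
    have hTH : ∀ y ∈ (R : Subgroup G), y ∈ T → y ∈ H := by
      intro y hy hyT
      obtain ⟨k, hk⟩ := IsPGroup.iff_orderOf.1 R.isPGroup' ⟨y, hy⟩
      rw [orderOf_mk] at hk
      obtain ⟨m, hm⟩ := exists_pow_eq_self_of_coprime (x := y) (n := 2) (hk ▸ hq2.pow_right k)
      rw [← hm]
      exact pow_mem (sq_mem_St hyT) m
    have hRH : (R : Subgroup G) ≤ H := by
      haveI : Nontrivial R := ⟨⟨x, hxR⟩, 1, fun e => hx1 (congrArg Subtype.val e)⟩
      haveI := R.isPGroup'.center_nontrivial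
      obtain ⟨⟨z, hz⟩, hz1⟩ := exists_ne (1 : center R)
      have hz1' : (z : G) ≠ 1 := fun e => hz1 (Subtype.ext (Subtype.ext e))
      have hc : ∀ y ∈ (R : Subgroup G), y * z = z * y := fun y hy =>
        congrArg Subtype.val (mem_center_iff.1 hz ⟨y, hy⟩)
      have hzH : (z : G) ∈ H := hTH z z.2 (mem_St2_of_conj h3 hab hxH hx1 (by
        rw [← hc x hxR, mul_inv_cancel_right]; exact hxH))
      exact fun y hy => hTH y hy (mem_St2_of_conj h3 hab hzH hz1' (by
        rw [hc y hy, mul_inv_cancel_right]; exact hzH))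
    haveI : IsCyclic (R : Subgroup G) := by
      haveI : IsCyclic ((R : Subgroup G).subgroupOf H) :=
        (R.isPGroup'.comap_subtype (K := H)).isCyclic_of_isZGroup
      exact isCyclic_of_surjective _ (subgroupOfEquivOfLe hRH).surjective
    haveI : IsCyclic (R.subtype (hRH.trans hHT)) :=
      isCyclic_of_surjective _ (subgroupOfEquivOfLe (hRH.trans hHT)).symm.surjective
    rcases (R.subtype (hRH.trans hHT)).normalizer_le_centralizer_or_le_commutator with h | h
    · have h4 : normalizer (R : Set G) ≤ centralizer (R : Set G) := by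
        intro g hg y hy
        have hg' := mem_normalizer_iff.1 hg
        have hgT : g ∈ T := mem_St2_of_conj h3 hab hxH hx1 (hRH ((hg' x).1 hxR))
        exact congrArg Subtype.val (h (x := ⟨g, hgT⟩) (mem_normalizer_iff.2 fun w => hg' w)
          ⟨y, hHT (hRH hy)⟩ hy)
      exact hnil q hq hqH ⟨_, inferInstance, by
        rw [(MonoidHom.ker_transferSylow_isComplement' R h4).symm.index_eq_card,
          R.card_eq_multiplicity]⟩
    · have h4 : (R : Subgroup G) ≤ ⁅T, T⁆ := by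
        intro y hy
        rw [← map_subtype_commutator]
        exact ⟨⟨y, hHT (hRH hy)⟩, h hy, rfl⟩
      apply R.not_dvd_index
      rw [← relIndex_mul_index h4, ← relIndex_mul_index h1]
      exact (hqd.mul_right _).mul_left _
  haveI : IsCyclic (⁅H, H⁆ : Subgroup G) := by
    rw [← map_subtype_commutator]
    haveI := IsZGroup.isCyclic_commutator H
    exact isCyclic_of_surjective _ (equivMapOfInjective _ _ H.subtype_injective).surjective
  have h4 : H ≤ centralizer ((⁅H, H⁆ : Subgroup G) : Set G) := by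
    conv_lhs => rw [← h2]
    apply commutator_le_centralizer_of_cyclic
    intro g hg
    change ⁅H, H⁆ ≤ (⁅H, H⁆ : Subgroup G).comap (MulAut.conj g).toMonoidHom
    rw [commutator_le]
    intro x hx y hy
    rw [mem_comap, map_commutatorElement]
    exact commutator_mem_commutator (conj_mem_St hg hx) (conj_mem_St hg hy)
  haveI : Group.IsNilpotent H := by
    refine Subgroup.isNilpotent_of_ker_le_center Abelianization.of ?_
    rw [Abelianization.ker_of, _root_.commutator_def, commutator_le]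
    intro x _ y _
    rw [mem_center_iff]
    intro w
    exact Subtype.ext (h4 w.2 _ (commutator_mem_commutator x.2 y.2)).symm
  have hcyc : IsCyclic H := inferInstance
  refine ⟨hcyc, fun s hsa hsb => ?_⟩
  have hsT : s ∈ T := Or.inr ⟨hsa, hsb⟩
  have hc : ∀ x ∈ H, ∀ y ∈ H, x * y = y * x := (isMulCommutative_iff' H).1 IsCyclic.isMulCommutative
  let f : H →* H := MonoidHom.mk' (fun h => ⟨s * h * s⁻¹ * (h : G)⁻¹,
    mul_mem (conj_mem_St hsT h.2) (inv_mem h.2)⟩) (fun x y => Subtype.ext (by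
      show s * (x * y : G) * s⁻¹ * (x * y : G)⁻¹ = s * x * s⁻¹ * (x : G)⁻¹ * (s * y * s⁻¹ * (y : G)⁻¹)
      rw [mul_assoc (s * x * s⁻¹), hc _ (inv_mem x.2) _ (mul_mem (conj_mem_St hsT y.2) (inv_mem y.2))]
      group))
  have hf : ∀ h ∈ H, s * h * s⁻¹ * h⁻¹ ∈ f.range.map H.subtype := fun h hh => ⟨_, ⟨⟨h, hh⟩, rfl⟩, rfl⟩
  have h5 : ⁅T, T⁆ ≤ f.range.map H.subtype := by
    rw [commutator_le]
    have aux : ∀ x, x * s⁻¹ ∈ H → ∀ y ∈ H, ⁅x, y⁆ ∈ f.range.map H.subtype := by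
      intro x hx y hy
      have e : ⁅x, y⁆ = (x * s⁻¹) * (s * y * s⁻¹) * (x * s⁻¹)⁻¹ * y⁻¹ := by
        rw [commutatorElement_def]; group
      rw [e, hc _ hx _ (conj_mem_St hsT hy), mul_inv_cancel_right]
      exact hf y hy
    intro x hx y hy
    rcases hdec s hsa hsb x hx with hx | hx <;> rcases hdec s hsa hsb y hy with hy | hy
    · rw [commutatorElement_eq_one_iff_mul_comm.2 (hc x hx y hy)]; exact one_mem _
    · rw [← commutatorElement_inv]; exact inv_mem (aux y hy x hx)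
    · exact aux x hx y hy
    · have h6 := mul_mem hy (inv_mem hx)
      have e : ⁅x, y⁆ = (x * s⁻¹) * (s * (y * s⁻¹ * (x * s⁻¹)⁻¹) * s⁻¹) * (y * s⁻¹)⁻¹ := by
        rw [commutatorElement_def]; group
      rw [e, hc _ hx _ (conj_mem_St hsT h6)]
      convert hf _ h6 using 1
      group
  have h6 : Function.Injective f := by
    rw [Finite.injective_iff_surjective]
    intro y
    obtain ⟨w, hw, e⟩ := h5 (h2.ge y.2)
    obtain ⟨v, rfl⟩ := hw
    exact ⟨v, Subtype.ext e⟩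
  intro h hh
  have h7 := conj_mem_St hsT hh
  have h8 := (injective_iff_map_eq_one f).1 h6 ⟨_, mul_mem h7 hh⟩ (Subtype.ext (by
    show s * (s * h * s⁻¹ * h) * s⁻¹ * (s * h * s⁻¹ * h)⁻¹ = 1
    rw [mul_inv_eq_one]
    calc s * (s * h * s⁻¹ * h) * s⁻¹ = s ^ 2 * h * (s ^ 2)⁻¹ * (s * h * s⁻¹) := by
          rw [pow_two]; group
      _ = _ := by rw [hc _ (sq_mem_St hsT) _ hh, mul_inv_cancel_right, hc _ h7 _ hh]))
  exact eq_inv_of_mul_eq_one_left (congrArg Subtype.val h8)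

theorem mem_iff_of_normal_complement {M : Type*} [Group M] [Finite M] {q : ℕ} (hq : q.Prime)
    (N : Subgroup M) [N.Normal] (hN : N.index = q ^ (Nat.card M).factorization q) (x : M) :
    x ∈ N ↔ ¬ q ∣ orderOf x := by
  constructor
  · intro hx h
    have h1 : q ^ ((Nat.card M).factorization q + 1) ∣ Nat.card M := by
      rw [pow_succ, ← hN]
      conv_rhs => rw [← N.index_mul_card]
      exact Nat.mul_dvd_mul_left _ (h.trans (orderOf_dvd_natCard N hx))
    exact Nat.pow_succ_factorization_not_dvd Nat.card_pos.ne' hq h1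
  · intro h
    obtain ⟨m, hm⟩ := exists_pow_eq_self_of_coprime (x := x) (n := N.index)
      (hN ▸ ((Nat.Prime.coprime_iff_not_dvd hq).2 h).pow_left _)
    rw [← hm]
    exact pow_mem (N.pow_index_mem x) m

namespace Coord

variable {V : Type*} {a b : Ω} [AddCommGroup V] [DistribMulAction (St G a b) V] (C : Coord G a b V)
include C

theorem t_nsmul (n : ℕ) (v : V) : C.t (n • v) = C.t v ^ n := by
  induction n with
  | zero => simp [C.t_zero]
  | succ n ih => rw [succ_nsmul, C.t_add, ih, pow_succ]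

theorem odd_main [FaithfulSMul G Ω] [Finite G] [Finite Ω]
    (h2 : ∀ a b c d : Ω, a ≠ b → c ≠ d → ∃ g : G, g • a = c ∧ g • b = d)
    (h3 : ∀ (g : G) (a b c : Ω), a ≠ b → b ≠ c → a ≠ c → g • a = a → g • b = b → g • c = c → g = 1)
    (hodd : Odd (Nat.card (St G a b))) [Nontrivial V]
    (hreg : ∀ N : Subgroup G, N.Normal → IsPretransitive N Ω → ∃ a : Ω, stabilizer N a ≠ ⊥) :
    (Even (Nat.card V) ∧ IsMultiplyPretransitive G Ω 3) ∨
    (2 * Nat.card (St G a b) + 2 = Nat.card Ω ∧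
      (∃ p f : ℕ, p.Prime ∧ p ≠ 2 ∧ 0 < f ∧ Nat.card Ω = p ^ f + 1) ∧
      ∀ (K : Type) [Field K] [Finite K], Nat.card K + 1 = Nat.card Ω →
        Nonempty (G ≃* PSL(2, K))) := by
  haveI := C.finite
  have hcard := C.card
  have hf := C.fpf h3
  have hdvd : Nat.card (St G a b) ∣ Nat.card V - 1 := by
    have := card_dvd_of_fpf (A := (⊤ : Subgroup (St G a b))) (W := (⊤ : AddSubgroup V))
      (fun g _ => hf g) (fun _ _ _ _ => trivial)
    rwa [card_top, AddSubgroup.card_top] at this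
  have hV1 : 1 < Nat.card V := Finite.one_lt_card
  obtain ⟨M, -, hM⟩ := exists_minimal_le_of_wellFoundedLT
    (fun M : Subgroup G => M.Normal ∧ ∀ v, C.t v ∈ M) ⊤ ⟨inferInstance, fun _ => trivial⟩
  haveI := hM.1.1
  have h2M := C.two_trans_of_normal h2 M hM.1.2
  have h3M : ∀ (g : M) (a b c : Ω), a ≠ b → b ≠ c → a ≠ c → g • a = a → g • b = b → g • c = c →
      g = 1 := fun g a b c p1 p2 p3 p4 p5 p6 => Subtype.ext (h3 g a b c p1 p2 p3 p4 p5 p6)
  let j : St M a b →* St G a b := MonoidHom.mk' (fun x => ⟨x.1.1, x.2⟩) (fun _ _ => rfl)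
  have hj : Function.Injective j := fun x y e =>
    Subtype.ext (Subtype.ext (congrArg (fun z : St G a b => (z : G)) e))
  have hjd := card_dvd_of_injective j hj
  obtain ⟨R, _, _, ρ, hρ⟩ := exists_fpf hf
  haveI : IsZGroup (St G a b) := isZGroup_of_no_four hρ.noPP hρ.uniq (fun x hx => by
    rw [eq_one_of_sq_of_odd hodd (x := x ^ 2) (by rw [← pow_mul, hx])])
  haveI : IsZGroup (St M a b) := IsZGroup.of_injective hj
  obtain ⟨-, hinv⟩ := odd_cyclic_inverted h3M C.ne (hodd.of_dvd_nat hjd) (by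
    rintro q hq hqd ⟨N, hN, hNi⟩
    have hm := mem_iff_of_normal_complement hq N hNi
    have h4 := hM.2 (y := N.map M.subtype) ⟨⟨by
      rintro _ ⟨x, hx, rfl⟩ g
      refine ⟨⟨_, hM.1.1.conj_mem _ x.2 g⟩, (hm _).2 ?_, rfl⟩
      rw [orderOf_mk, show orderOf (g * x * g⁻¹) = orderOf (x : G) from
        (MulAut.conj g).orderOf_eq (x : G), orderOf_coe]
      exact (hm x).1 hx⟩, fun v => ⟨⟨_, hM.1.2 v⟩, (hm _).2 fun h => by
        rw [orderOf_mk] at h
        have h5 : q ∣ Nat.card V := h.trans (orderOf_dvd_of_pow_eq_one (by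
          rw [← C.t_nsmul, card_nsmul_eq_zero', C.t_zero]))
        have h6 := Nat.dvd_sub h5 (hqd.trans (hjd.trans hdvd))
        rw [show Nat.card V - (Nat.card V - 1) = 1 by omega] at h6
        exact hq.one_lt.ne' (Nat.dvd_one.1 h6), rfl⟩⟩ (map_subtype_le N)
    have h5 : N = ⊤ := by
      rw [eq_top_iff]
      intro x _
      obtain ⟨y, hy, e⟩ := h4 x.2
      rwa [← Subtype.ext e]
    rw [h5, index_top, eq_comm, Nat.pow_eq_one, Nat.factorization_eq_zero_iff] at hNi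
    rcases hNi with h | h | h | h
    · exact hq.one_lt.ne' h
    · exact h hq
    · exact h (hqd.trans (card_subgroup_dvd_card _))
    · exact Nat.card_pos.ne' h)
  obtain ⟨k, hk1⟩ : ∃ k : St M a b, k ≠ 1 := by
    by_contra hcon
    push Not at hcon
    haveI : Nontrivial Ω := ⟨a, b, C.ne⟩
    obtain ⟨p, -, hp, -, -, hP⟩ := sharp2_kernel h2M (fun g x y hxy hx hy => by
      obtain ⟨u, u1, u2⟩ := h2M a b x y C.ne hxy
      have := congrArg Subtype.val (hcon ⟨u⁻¹ * g * u, by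
        show _ • a = a
        rw [mul_smul, mul_smul, u1, hx, inv_smul_eq_iff, u1], by
        show _ • b = b
        rw [mul_smul, mul_smul, u2, hy, inv_smul_eq_iff, u2]⟩)
      have this : u⁻¹ * g * u = 1 := this
      calc g = u * (u⁻¹ * g * u) * u⁻¹ := by group
        _ = 1 := by rw [this]; simp)
    haveI := Fact.mk hp
    obtain ⟨P⟩ : Nonempty (Sylow p M) := inferInstance
    obtain ⟨p1, -, -, p4, -⟩ := hP inferInstance P
    haveI := P.characteristic_of_normal p1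
    obtain ⟨x, hx⟩ := hreg ((P : Subgroup M).map M.subtype) inferInstance ⟨fun x y => by
      obtain ⟨u, hu, -⟩ := p4 x y
      exact ⟨⟨u.1.1, u.1, u.2, rfl⟩, hu⟩⟩
    apply hx
    rw [eq_bot_iff]
    rintro ⟨_, u, hu, rfl⟩ h
    exact Subtype.ext (congrArg (fun w : (P : Subgroup M) => w.1.1)
      ((p4 x x).unique (y₁ := ⟨u, hu⟩) (y₂ := 1) h (one_smul _ _)))
  obtain ⟨s, hsa, hsb⟩ := h2M a b b a C.ne C.ne.symm
  have hs2 : s * s = 1 := by
    have h4 : s ^ 2 ∈ St M a b := sq_mem_St (Or.inr ⟨hsa, hsb⟩)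
    have h5 := hinv s hsa hsb _ h4
    rw [show s * s ^ 2 * s⁻¹ = s ^ 2 by group] at h5
    rw [← pow_two]
    exact congrArg Subtype.val (eq_one_of_sq_of_odd (hodd.of_dvd_nat hjd) (x := ⟨_, h4⟩)
      (Subtype.ext (by rw [pow_two]; exact mul_eq_one_iff_eq_inv.2 h5)))
  have T := C.torus_of_subgroup M hM.1.2 s.2 (congrArg Subtype.val hs2) hsa
    (fun x hx hxM => congrArg Subtype.val (hinv s hsa hsb ⟨x, hxM⟩ hx))
  have hk : ∃ k ∈ M.subgroupOf (St G a b), k ^ 2 ≠ 1 :=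
    ⟨j k, k.1.2, fun e => hk1 (hj ((eq_one_of_sq_of_odd hodd e).trans (map_one j).symm))⟩
  rcases Nat.even_or_odd (Nat.card V) with hV | hV
  · left
    obtain ⟨e, he⟩ := exists_prime_addOrderOf_dvd_card' (G := V) 2 hV.two_dvd
    refine ⟨hV, C.three_trans h2 fun v w hv hw => ?_⟩
    obtain ⟨k, -, hk⟩ := T.even_core h3 hk (fun m hm => by
      obtain ⟨k, hk⟩ := exists_sq_of_odd hodd m
      exact ⟨_, pow_mem hm k, hk⟩) (fun x y hx hy => by
      by_contra hxy
      obtain ⟨u, u1, u2⟩ := h2 a b x y C.ne hxy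
      have h4 := congrArg Subtype.val (eq_one_of_sq_of_odd hodd (x := ⟨u⁻¹ * s * u, by
        show _ • a = a
        rw [mul_smul, mul_smul, u1, hx, inv_smul_eq_iff, u1], by
        show _ • b = b
        rw [mul_smul, mul_smul, u2, hy, inv_smul_eq_iff, u2]⟩) (Subtype.ext (by
          show (u⁻¹ * s * u) ^ 2 = 1
          calc _ = u⁻¹ * (s * s : M) * u := by rw [pow_two, coe_mul]; group
            _ = 1 := by rw [hs2]; simp)))
      have h4 : u⁻¹ * s * u = 1 := h4
      have h5 : (s : G) = 1 := by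
        calc (s : G) = u * (u⁻¹ * s * u) * u⁻¹ := by group
          _ = 1 := by rw [h4]; simp
      exact C.ne ((one_smul G a).symm.trans (h5 ▸ hsa))) (e := e)
      (by rintro rfl; simp at he) (by rw [← two_nsmul, ← he, addOrderOf_nsmul_eq_zero]) v w hv hw
    exact ⟨k, hk⟩
  right
  have h2t : ∀ v : V, v + v = 0 → v = 0 := fun v hv => by
    rw [← AddMonoid.addOrderOf_eq_one_iff]
    exact Nat.eq_one_of_dvd_coprimes (Nat.coprime_two_left.2 hV)
      (addOrderOf_dvd_of_nsmul_eq_zero (by rwa [two_nsmul])) (addOrderOf_dvd_natCard v)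
  obtain ⟨hirr, hK⟩ := T.odd_core h3 h2t (Or.inl hk)
  obtain ⟨⟨p, f, hp, hf0, hV'⟩, hφ⟩ := exists_field_coord _ T.comm hirr
  have main : ∀ (K : Type) [Field K] [Finite K], Nat.card K + 1 = Nat.card Ω →
      Nat.card V - 1 ≤ 2 * Nat.card (St G a b) ∧ Nonempty (G ≃* PSL(2, K)) := by
    intro K _ _ hcK
    obtain ⟨φ, hlin, -⟩ := hφ K (by omega)
    have hlin' := fun g hg => hlin g (fun x hx => T.comm x hx g hg)
    obtain ⟨l, hl, hs, hsq⟩ := hK K φ hlin'
    have nz : ∀ x : K, x ≠ 0 → φ x ≠ 0 := fun x hx e => hx (φ.injective (e.trans (map_zero φ).symm))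
    have h1 := nz 1 one_ne_zero
    have hneg : ∀ g : St G a b, g • φ 1 ≠ -φ 1 := by
      intro g hg
      have := eq_one_of_sq_of_odd hodd (hf (g ^ 2) _ h1 (by
        rw [pow_two, mul_smul, hg, smul_neg, hg, neg_neg]))
      rw [this, one_smul] at hg
      exact h1 (h2t _ (add_eq_zero_iff_eq_neg.2 hg))
    have hsq' : ∀ y : K, y ≠ 0 → IsSquare y → ∃ k ∈ M.subgroupOf (St G a b), k • φ 1 = φ y := by
      rintro _ hy ⟨x, rfl⟩
      obtain ⟨k, hk, hk'⟩ := hsq x (left_ne_zero_of_mul hy)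
      exact ⟨k, hk, by rw [hk', mul_one, pow_two]⟩
    have horb : ∀ v : V, v ≠ 0 → ∃ k ∈ M.subgroupOf (St G a b), k • φ 1 = v ∨ k • φ 1 = -v := by
      intro v hv
      obtain ⟨y, rfl⟩ := φ.surjective v
      have hy : y ≠ 0 := by rintro rfl; exact hv (map_zero φ)
      by_cases h : IsSquare y
      · obtain ⟨k, hk, e⟩ := hsq' y hy h
        exact ⟨k, hk, Or.inl e⟩
      · have h4 : ¬ IsSquare (-1 : K) := fun h' => by
          obtain ⟨k, -, e⟩ := hsq' _ (by simp) h'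
          exact hneg k (by rw [e, map_neg])
        obtain ⟨k, hk, e⟩ := hsq' _ (by simpa using hy) (H8.isSquare_mul_of_not h4 h)
        exact ⟨k, hk, Or.inr (by rw [e, neg_one_mul, map_neg])⟩
    have hall : ∀ g : St G a b, g ∈ M.subgroupOf (St G a b) := by
      intro g
      obtain ⟨k, hk, e | e⟩ := horb (g • φ 1) (fun e => h1 ((smul_eq_zero_iff_eq g).1 e))
      · have := hf (g⁻¹ * k) _ h1 (by rw [mul_smul, e, inv_smul_smul])
        rwa [inv_mul_eq_one.1 this]
      · exact absurd (by rw [mul_smul, e, smul_neg, inv_smul_smul]) (hneg (g⁻¹ * k))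
    constructor
    · have h5 := card_ne_add_one (0 : V)
      have h6 := Nat.card_le_card_of_surjective
        (fun p : St G a b ⊕ St G a b => (Sum.elim (fun g => ⟨g • φ 1, fun e => h1
          ((smul_eq_zero_iff_eq g).1 e)⟩) (fun g => ⟨-(g • φ 1), fun e => h1
          ((smul_eq_zero_iff_eq g).1 (neg_eq_zero.1 e))⟩) p : {v : V // v ≠ 0})) (by
          intro v
          obtain ⟨k, -, e | e⟩ := horb v v.2
          · exact ⟨Sum.inl k, Subtype.ext e⟩
          · exact ⟨Sum.inr k, Subtype.ext (neg_eq_iff_eq_neg.2 e)⟩)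
      rw [Nat.card_sum] at h6
      omega
    · refine ((C.mobius φ (fun g => hlin' g (hall g)) hsa hsb hl hs).resolve_left fun h => ?_).2
      obtain ⟨g, hg⟩ := C.trans_of_three h.1 _ _ h1 (neg_ne_zero.2 h1)
      exact hneg g hg
  haveI := Fact.mk hp
  refine ⟨?_, ⟨p, f, hp, ?_, hf0, by omega⟩, fun K _ _ hK => (main K hK).2⟩
  · have h4 := (main (GaloisField p f) (by rw [GaloisField.card p f hf0.ne']; omega)).1
    obtain ⟨m, hm⟩ := hdvd
    obtain ⟨d, hd⟩ := hodd
    obtain ⟨n, hn⟩ := hV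
    have : m ≤ 2 := by nlinarith
    interval_cases m <;> omega
  · rintro rfl
    rw [hV'] at hV
    exact (Nat.not_even_iff_odd.2 hV) ((Nat.even_pow' hf0.ne').2 even_two)

end Coord

end Cfsg.Agent.H2
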