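import Cfsg.Agent.H2.Zass2

/-! Zassenhaus groups with commutative kernel: the dichotomy. -/

set_option autoImplicit false

namespace Cfsg.Agent.H2

open Subgroup MulAction
open scoped MatrixGroups commutatorElement

universe u

variable {G : Type u} {Ω : Type*} [Group G] [MulAction G Ω]

theorem even_bound [Finite G] [Finite Ω]
    (h2 : ∀ a b c d : Ω, a ≠ b → c ≠ d → ∃ g : G, g • a = c ∧ g • b = d)
    (h3 : ∀ (g : G) (a b c : Ω), a ≠ b → b ≠ c → a ≠ c → g • a = a → g • b = b → g • c = c → g = 1)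
    {a b : Ω} (hab : a ≠ b) (heven : Even (Nat.card (St G a b))) :
    Nat.card Ω - 2 ≤ 2 * Nat.card (St G a b) := by
  refine (even_two_point_bound h2 h3 hab heven).trans (Nat.mul_le_mul_left 2 ?_)
  rw [← ncard_map_pair h2 hab hab.symm]
  apply Set.ncard_le_ncard _ (Set.toFinite _)
  rintro x ⟨⟨hx, -⟩, hxa⟩
  exact ⟨hxa, swap_of_orderOf_two hx hxa⟩

theorem exists_St_ne_one (h2 : ∀ a b c d : Ω, a ≠ b → c ≠ d → ∃ g : G, g • a = c ∧ g • b = d)
    (h : ∃ g : G, g ≠ 1 ∧ ∃ a b : Ω, a ≠ b ∧ g • a = a ∧ g • b = b) {a b : Ω} (hab : a ≠ b) :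
    ∃ g ∈ St G a b, g ≠ 1 := by
  obtain ⟨g, hg, x, y, hxy, hx, hy⟩ := h
  obtain ⟨u, u1, u2⟩ := h2 x y a b hxy hab
  refine ⟨u * g * u⁻¹, ⟨?_, ?_⟩, by simpa using hg⟩
  · show _ • a = a
    rw [← u1, conj_smul_smul, hx]
  · show _ • b = b
    rw [← u2, conj_smul_smul, hy]

namespace Coord

variable {V : Type*} {a b : Ω} [AddCommGroup V] [DistribMulAction (St G a b) V] (C : Coord G a b V)
include C

theorem card_dvd [Finite G] [Finite Ω]
    (h3 : ∀ (g : G) (a b c : Ω), a ≠ b → b ≠ c → a ≠ c → g • a = a → g • b = b → g • c = c → g = 1) :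
    Nat.card (St G a b) ∣ Nat.card V - 1 := by
  haveI := C.finite
  have := card_dvd_of_fpf (A := (⊤ : Subgroup (St G a b))) (W := (⊤ : AddSubgroup V))
    (fun g _ => C.fpf h3 g) (fun _ _ _ _ => trivial)
  rwa [card_top, AddSubgroup.card_top] at this

theorem three_trans_of_card [Finite G] [Finite Ω]
    (h2 : ∀ a b c d : Ω, a ≠ b → c ≠ d → ∃ g : G, g • a = c ∧ g • b = d)
    (h3 : ∀ (g : G) (a b c : Ω), a ≠ b → b ≠ c → a ≠ c → g • a = a → g • b = b → g • c = c → g = 1)
    (hd : Nat.card V ≤ Nat.card (St G a b) + 1) : IsMultiplyPretransitive G Ω 3 := by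
  haveI := C.finite
  refine C.three_trans h2 fun v w hv hw => ?_
  have hb : Function.Bijective (fun g : St G a b => (⟨g • v, fun e => hv
      ((smul_eq_zero_iff_eq g).1 e)⟩ : {w : V // w ≠ 0})) := by
    refine Function.Injective.bijective_of_nat_card_le (fun g k e => ?_) ?_
    · have e' : g • v = k • v := congrArg Subtype.val e
      rw [← inv_mul_eq_one]
      exact C.fpf h3 _ v hv (by rw [mul_smul, ← e', inv_smul_smul])
    · have := card_ne_add_one (0 : V)
      omega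
  obtain ⟨g, hg⟩ := hb.2 ⟨w, hw⟩
  exact ⟨g, congrArg Subtype.val hg⟩

theorem nontrivial_of [FaithfulSMul G Ω] {g : G} (hg : g ∈ St G a b) (hg1 : g ≠ 1) :
    Nontrivial V := by
  by_contra h
  rw [not_nontrivial_iff_subsingleton] at h
  refine hg1 (eq_of_smul_eq_smul fun y : Ω => ?_)
  rw [one_smul]
  by_cases hy : y = a
  · rw [hy]; exact hg.1
  · obtain ⟨v, rfl⟩ := C.ι_surj y hy
    rw [Subsingleton.elim v 0, C.ι_zero]; exact hg.2

theorem dichotomy [FaithfulSMul G Ω] [Finite G] [Finite Ω]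
    (h2 : ∀ a b c d : Ω, a ≠ b → c ≠ d → ∃ g : G, g • a = c ∧ g • b = d)
    (h3 : ∀ (g : G) (a b c : Ω), a ≠ b → b ≠ c → a ≠ c → g • a = a → g • b = b → g • c = c → g = 1)
    [Nontrivial V]
    (hreg : ∀ N : Subgroup G, N.Normal → IsPretransitive N Ω → ∃ a : Ω, stabilizer N a ≠ ⊥) :
    IsMultiplyPretransitive G Ω 3 ∨
    (2 * Nat.card (St G a b) + 2 = Nat.card Ω ∧
      (∃ p f : ℕ, p.Prime ∧ p ≠ 2 ∧ 0 < f ∧ Nat.card Ω = p ^ f + 1) ∧
      ∀ (K : Type) [Field K] [Finite K], Nat.card K + 1 = Nat.card Ω →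
        Nonempty (G ≃* PSL(2, K))) := by
  rcases Nat.even_or_odd (Nat.card (St G a b)) with h | h
  · haveI := C.finite
    have h4 := C.card
    have hV1 : 1 < Nat.card V := Finite.one_lt_card
    by_cases hd : Nat.card V ≤ Nat.card (St G a b) + 1
    · exact Or.inl (C.three_trans_of_card h2 h3 hd)
    · obtain ⟨m, hm⟩ := C.card_dvd h3
      have h5 : 2 ≤ m := by
        by_contra h6
        have : m ≤ 1 := by omega
        interval_cases m <;> omega
      have h6 : 2 * Nat.card (St G a b) ≤ Nat.card Ω - 2 := by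
        have := Nat.mul_le_mul_left (Nat.card (St G a b)) h5
        omega
      have h7 := even_bound h2 h3 C.ne h
      exact Or.inr ⟨by omega, C.psl_of_even h2 h3 h h6⟩
  · exact (C.odd_main h2 h3 h hreg).imp_left And.right

end Coord

end Cfsg.Agent.H2
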